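import Cfsg.Agent.SG.IG
import Cfsg.Agent.FT.P.BG03a

/-! Coprime elementary abelian operator groups with unique invariant Sylow subgroups: vocabulary
(see notes/s1917_plan.md). -/

set_option autoImplicit false

namespace Cfsg.Agent.MP

open Subgroup Cfsg.Agent.FT

variable {G : Type*} [Group G]

/-- `V` is an `A`-invariant `p`-subgroup of `H` -/
structure Pv (p : ℕ) (A H V : Subgroup G) : Prop where
  le : V ≤ H
  pg : IsPGroup p V
  inv : A ≤ 𝐍(V)

/-- the hypothesis of the theorem -/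
structure Hy (r : ℕ) (A H : Subgroup G) : Prop where
  ab : A ≤ 𝐂(A)
  exp : ∀ a ∈ A, a ^ r = 1
  r2 : r ≠ 2
  nH : A ≤ 𝐍(H)
  cop : ¬ r ∣ ♯H
  odd : ¬ 2 ∣ ♯(H ⊓ 𝐂(A) : Subgroup G)
  join : ∀ p : ℕ, p.Prime → ∀ V W : Subgroup G, Pv p A H V → Pv p A H W →
    IsPGroup p (V ⊔ W : Subgroup G)

/-- the invariant Sylow subgroup -/
def sy (p : ℕ) (A H : Subgroup G) : Subgroup G := sSup {V | Pv p A H V}

/-- `p` is not large: `[U, A]` centralises every invariant `p`-subgroup normalised by `U` -/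
def NL (p : ℕ) (A H : Subgroup G) : Prop := ∀ q : ℕ, q.Prime → q ≠ p → ∀ V U : Subgroup G,
  Pv p A H V → Pv q A H U → U ≤ 𝐍(V) → ⁅U, A⁆ ≤ 𝐂(V)

/-- `p` is small -/
def Small (p : ℕ) (A H : Subgroup G) : Prop := ∃ b ∈ A, b ≠ 1 ∧ sy p A H ≤ 𝐂[b]

/-- a minimal counterexample -/
structure Mn (r : ℕ) (A H : Subgroup G) : Prop extends Hy r A H where
  sol : ∀ L : Subgroup G, L ≤ H → L ≠ H → A ≤ 𝐍(L) → Group.IsSolvable L
  simp : ∀ N : Subgroup G, N ⊴ H → A ≤ 𝐍(N) → N = ⊥ ∨ N = H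
  nsol : ¬ Group.IsSolvable H
  faith : ∀ a ∈ A, a ∈ 𝐂(H) → a = 1
  even : 2 ∣ ♯H

/-- `X` is an `A`-invariant `{p, q}`-subgroup of `H` -/
structure PQ (p q : ℕ) (A H X : Subgroup G) : Prop where
  le : X ≤ H
  pi : PiG {p, q} X
  inv : A ≤ 𝐍(X)

/-- maximal such subgroup -/
structure MX (p q : ℕ) (A H K : Subgroup G) : Prop extends PQ p q A H K where
  max : ∀ X : Subgroup G, PQ p q A H X → K ≤ X → X ≤ K

/-- the invariant Sylow subgroups for `p` and `q` permute -/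
def Perm (p q : ℕ) (A H : Subgroup G) : Prop := PiG {p, q} (sy p A H ⊔ sy q A H : Subgroup G)

/-- the largest invariant `{p, q}`-subgroup containing the invariant Sylow `p`-subgroup -/
def hp (p q : ℕ) (A H : Subgroup G) : Subgroup G := sSup {X | PQ p q A H X ∧ sy p A H ≤ X}

theorem PQ.symm {p q : ℕ} {A H X : Subgroup G} (h : PQ p q A H X) : PQ q p A H X :=
  ⟨h.le, Set.pair_comm p q ▸ h.pi, h.inv⟩
theorem MX.symm {p q : ℕ} {A H X : Subgroup G} (h : MX p q A H X) : MX q p A H X :=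
  ⟨h.toPQ.symm, fun Y hY => h.max Y hY.symm⟩
theorem Perm.symm {p q : ℕ} {A H : Subgroup G} (h : Perm p q A H) : Perm q p A H := by
  unfold Perm at *
  rwa [Set.pair_comm, sup_comm]

end Cfsg.Agent.MP
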