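import Cfsg.Agent.MP.Defs

/-! Section B: basic facts (see notes/s1917_plan.md). -/

set_option autoImplicit false
set_option linter.unusedSectionVars false

namespace Cfsg.Agent.MP

open Subgroup Cfsg.Agent.FT Cfsg.Agent.SF Cfsg.Agent.H1
open scoped commutatorElement

universe u
variable {G : Type u} [Group G] [Finite G] {r p q : ℕ} [hr : Fact r.Prime] [hp' : Fact p.Prime]
  [hq : Fact q.Prime] {A H K L M N R T U V W X Y : Subgroup G} {a b c g x : G}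

theorem Pv.mono (h : Pv p A L V) (hL : L ≤ H) : Pv p A H V := ⟨h.le.trans hL, h.pg, h.inv⟩
theorem Pv.of_le (h : Pv p A H V) (h1 : W ≤ V) (h2 : A ≤ 𝐍(W)) : Pv p A H W :=
  ⟨h1.trans h.le, isPGroup_of_le h1 h.pg, h2⟩
theorem Pv.inf (h : Pv p A H V) (h2 : A ≤ 𝐍(W)) : Pv p A H (V ⊓ W) :=
  h.of_le inf_le_left (H2.le_normalizer_inf h.inv h2)
theorem Pv.fl (h : Pv p A H V) : Pv p A H ⁅V, A⁆ :=
  h.of_le (commutator_le_left' h.inv) (right_le_normalizer_commutator V A)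
theorem Pv.le_sy (h : Pv p A H V) : V ≤ sy p A H := le_sSup h

namespace Hy

variable (h : Hy r A H)
include h

theorem mono (hL : L ≤ H) (n : A ≤ 𝐍(L)) : Hy r A L :=
  ⟨h.ab, h.exp, h.r2, n, fun k => h.cop (k.trans (card_dvd_of_le' hL)),
    fun k => h.odd (k.trans (card_dvd_of_le' (inf_le_inf_right _ hL))),
    fun p hp V W a b => h.join p hp V W ⟨a.le.trans hL, a.pg, a.inv⟩ ⟨b.le.trans hL, b.pg, b.inv⟩⟩
theorem pgA : IsPGroup r A := H2.isPGroup_of_forall_pow_eq_one h.exp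
theorem solA : Group.IsSolvable A := isSolvable_of_isPGroup h.pgA
theorem cp (hB : R ≤ A) (hX : X ≤ H) : (♯R).Coprime ♯X :=
  coprime_of_exp (fun a ha => h.exp a (hB ha)) fun k => h.cop (k.trans (card_dvd_of_le' hX))
theorem b_lift (p : ℕ) [Fact p.Prime] (hN : N ⊴ H) (n : A ≤ 𝐍(N)) {V : Subgroup (Quo N)}
    (hV : Pv p (FT.bar N A) (FT.bar N H) V) : ∃ W, Pv p A H W ∧ FT.bar N W = V := by
  have h1 : unbar N V ≤ H := (unbar_le_iff hN).2 hV.le
  obtain ⟨P, h2, h3⟩ := exists_invariant_syl p (le_normalizer_unbar n hV.inv) (h.cp le_rfl h1)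
    (.inl h.solA)
  have h4 := h2.bar (unbar_le V)
  rw [bar_unbar] at h4
  exact ⟨P, ⟨h2.le.trans h1, h2.isPGroup, h3⟩, (h4.eq_of_le hV.pg h4.le le_rfl).symm⟩
theorem bar (hN : N ⊴ H) (n : A ≤ 𝐍(N)) : Hy r (FT.bar N A) (FT.bar N H) := by
  refine ⟨bar_le_cent N h.ab, fun z hz => ?_, h.r2, bar_le_normalizer N h.nH,
    fun k => h.cop (k.trans (card_bar_dvd N H)), fun k => h.odd ?_, fun p hp V W a b => ?_⟩
  · obtain ⟨x, hx, hn, rfl⟩ := mem_bar.1 hz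
    rw [← coset_pow hn, h.exp x hx, coset_one]
  · rw [← bar_inf_cent n (h.cp le_rfl hN.le) (.inl h.solA) hN.le] at k
    exact k.trans (card_bar_dvd _ _)
  · haveI := Fact.mk hp
    obtain ⟨V', a', e1⟩ := h.b_lift p hN n a
    obtain ⟨W', b', e2⟩ := h.b_lift p hN n b
    rw [← e1, ← e2, ← bar_sup (a'.le.trans hN.norm) (b'.le.trans hN.norm)]
    exact isPGroup_bar (h.join p hp V' W' a' b') N
theorem cj (g : G) : Hy r (H1.cj g A) (H1.cj g H) := by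
  have k : ∀ p V, Pv p (H1.cj g A) (H1.cj g H) V → Pv p A H (H1.cj g⁻¹ V) := fun p V a =>
    ⟨by rw [cj_le_iff_le_cj_inv, inv_inv]; exact a.le, isPGroup_cj _ a.pg, by
      rw [← cj_normalizer, ← cj_le_iff_le_cj_inv]; exact a.inv⟩
  refine ⟨by rw [← cj_centralizer]; exact cj_mono g h.ab, fun z hz => ?_, h.r2,
    by rw [← cj_normalizer]; exact cj_mono g h.nH, by rw [card_cj]; exact h.cop,
    by rw [← cj_centralizer, ← cj_inf, card_cj]; exact h.odd, fun p hp V W a b => ?_⟩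
  · have := h.exp _ (mem_cj.1 hz)
    rwa [show g⁻¹ * z * g = g⁻¹ * z * g⁻¹⁻¹ by rw [inv_inv], conj_pow, conj_eq_one_iff] at this
  · have := isPGroup_cj g (h.join p hp _ _ (k p V a) (k p W b))
    rwa [← cj_sup, cj_cj_inv] at this
theorem n_cent (hB : R ≤ A) : A ≤ 𝐍(𝐂(R)) :=
  H2.le_normalizer_centralizer ((h.ab.trans (cent_anti hB)).trans (cent_le_norm R))
theorem n_cent1 (ha : a ∈ A) : A ≤ 𝐍(𝐂[a]) := by
  rw [← cent_zpowers]; exact h.n_cent (zpowers_le.2 ha)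
theorem card_zp (ha : a ∈ A) (h1 : a ≠ 1) : ♯(zpowers a) = r := by
  rw [Nat.card_zpowers]; exact orderOf_eq_prime (h.exp a ha) h1
theorem b_sy (p : ℕ) [hp' : Fact p.Prime] : Syl p (sy p A H) H ∧ A ≤ 𝐍(sy p A H) := by
  obtain ⟨P, h1, h2⟩ := exists_invariant_syl p h.nH (h.cp le_rfl le_rfl) (.inl h.solA)
  have h3 : Pv p A H P := ⟨h1.le, h1.isPGroup, h2⟩
  have e : sy p A H = P := le_antisymm (sSup_le fun V hV => le_sup_right.trans
    (h1.eq_of_le (h.join p hp'.out P V h3 hV) le_sup_left (sup_le h1.le hV.le)).le) h3.le_sy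
  exact e ▸ ⟨h1, h2⟩
theorem sy_pv (p : ℕ) [Fact p.Prime] : Pv p A H (sy p A H) :=
  ⟨(h.b_sy p).1.le, (h.b_sy p).1.isPGroup, (h.b_sy p).2⟩
theorem sy_syl (p : ℕ) [Fact p.Prime] : Syl p (sy p A H) H := (h.b_sy p).1
theorem sy_inf (p : ℕ) [Fact p.Prime] (hL : L ≤ H) (n : A ≤ 𝐍(L)) : sy p A L = L ⊓ sy p A H :=
  le_antisymm (le_inf ((h.mono hL n).sy_pv p).le (((h.mono hL n).sy_pv p).mono hL).le_sy)
    (Pv.le_sy ⟨inf_le_left, isPGroup_of_le inf_le_right (h.sy_pv p).pg,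
      H2.le_normalizer_inf n (h.sy_pv p).inv⟩)
theorem syl_inf (p : ℕ) [Fact p.Prime] (hL : L ≤ H) (n : A ≤ 𝐍(L)) : Syl p (L ⊓ sy p A H) L :=
  h.sy_inf p hL n ▸ (h.mono hL n).sy_syl p
theorem cen_norm_sy (p : ℕ) [Fact p.Prime] : H ⊓ 𝐂(A) ≤ 𝐍(sy p A H) := fun c hc =>
  mem_normalizer_of_cj_le (Pv.le_sy ⟨cj_le_of_le hc.1 (h.sy_pv p).le, isPGroup_cj c (h.sy_pv p).pg, by
    rw [← cj_normalizer]
    exact (cj_eq_iff_mem_normalizer.2 (cent_le_norm A hc.2)).ge.trans (cj_mono c (h.sy_pv p).inv)⟩)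
theorem le_of_sy (hL : L ≤ H) (n : A ≤ 𝐍(L))
    (h1 : ∀ s : ℕ, s.Prime → L ⊓ sy s A H ≤ M) : L ≤ M :=
  le_of_forall_syl fun s hs _ => ⟨_, h.syl_inf s hL n, h1 s hs.out⟩
theorem sy_bar (p : ℕ) [Fact p.Prime] (hN : N ⊴ H) (n : A ≤ 𝐍(N)) :
    sy p (FT.bar N A) (FT.bar N H) = FT.bar N (sy p A H) :=
  ((h.sy_syl p).bar hN.norm).eq_of_le ((h.bar hN n).sy_pv p).pg (Pv.le_sy ⟨bar_mono N (h.sy_pv p).le,
    isPGroup_bar (h.sy_pv p).pg N, bar_le_normalizer N (h.sy_pv p).inv⟩) ((h.bar hN n).sy_pv p).le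
/-- (Q) -/
theorem sy_le_sup (p : ℕ) [Fact p.Prime] (hN : N ⊴ H) (n : A ≤ 𝐍(N)) (hL : L ≤ H) (n' : A ≤ 𝐍(L))
    (e : H ≤ N ⊔ L) : sy p A H ≤ N ⊔ (L ⊓ sy p A H) := by
  have h1 := (h.syl_inf p hL n').bar (hL.trans hN.norm)
  have h2 : FT.bar N L = FT.bar N H := le_antisymm (bar_mono N hL)
    ((bar_le_bar_iff hN.norm (hL.trans hN.norm)).2 (e.trans (sup_comm _ _).le))
  rw [h2] at h1
  rw [sup_comm, ← bar_le_bar_iff ((h.sy_pv p).le.trans hN.norm) ((inf_le_left.trans hL).trans hN.norm)]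
  exact (h1.eq_of_le (isPGroup_bar (h.sy_pv p).pg N) (bar_mono N inf_le_right)
    (bar_mono N (h.sy_pv p).le)).le
/-- (K) -/
theorem kk (pq : p ≠ q) (hV : Pv p A H V) (hT : Pv q A H T) (n : T ≤ 𝐍(V)) : V ⊓ 𝐂(A) ≤ 𝐂(T) := by
  rw [le_cent_iff_commutator, eq_bot_iff, ← inf_eq_bot_of_coprime'
    (coprime_of_isPGroup_ne hV.pg (h.sy_pv q).pg pq)]
  refine le_inf ((commutator_mono inf_le_left le_rfl).trans (commutator_le_left' n))
    ((commutator_mono le_rfl hT.le_sy).trans (commutator_le_right' ?_))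
  exact (inf_le_inf_right _ hV.le).trans (h.cen_norm_sy q)
theorem dec (hB : R ≤ A) (hX : X ≤ H) (n : R ≤ 𝐍(X)) : X = ⁅X, R⁆ ⊔ (X ⊓ 𝐂(R)) := by
  rw [sup_comm, H2.centralizer_sup_commutator n (h.cp hB hX) (.inl (isSolvable_of_le hB h.solA))]
theorem fl_fl (hB : R ≤ A) (hX : X ≤ H) (n : R ≤ 𝐍(X)) : ⁅⁅X, R⁆, R⁆ = ⁅X, R⁆ :=
  H2.commutator_commutator_eq n (h.cp hB hX)
theorem two (hV : Pv 2 A H V) : V ⊓ 𝐂(A) = ⊥ := by
  by_contra k
  exact h.odd ((dvd_card_of_isPGroup (isPGroup_of_le inf_le_left hV.pg) k).trans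
    (card_dvd_of_le' (inf_le_inf_right _ hV.le)))
theorem b_w (pq : p ≠ q) (hV : Pv p A H V) (hT : Pv q A H T) (n : T ≤ 𝐍(V)) : ⁅V, T⁆ ≤ ⁅V, A⁆ := by
  have hW : Pv p A H ⁅V, T⁆ := hV.of_le (commutator_le_left' n)
    (H2.le_normalizer_commutator hV.inv hT.inv)
  have n' : T ≤ 𝐍(⁅V, T⁆) := right_le_normalizer_commutator V T
  have c : ∀ X : Subgroup G, IsPGroup p X → (♯T).Coprime ♯X := fun X a =>
    coprime_of_isPGroup_ne hT.pg a pq.symm
  have h1 := H2.centralizer_le_commutator_of_commutator_eq n' (c _ hW.pg)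
    (H2.commutator_commutator_eq n (c _ hV.pg))
  have h2 := eq_of_sup_phi (commutator_le_left' hW.inv) ((h.dec le_rfl hW.le hW.inv).le.trans
    (sup_le_sup_left (((le_inf inf_le_left (h.kk pq hW hT n')).trans h1).trans (der_le_phi hW.pg)) _))
  exact h2.ge.trans (commutator_mono (commutator_le_left' n) le_rfl)
/-- (S3') -/
theorem nrm_fl (h1 : ⁅sy p A H, A⁆ ≤ core {p} H) : H ≤ 𝐍(⁅sy p A H, A⁆) := by
  have hP := h.sy_pv p
  have hD : Pv p A H (core {p} H) := ⟨core_le _ _, core_isPGroup H, le_normalizer_core _ h.nH⟩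
  have e : ⁅sy p A H, A⁆ = ⁅core {p} H, A⁆ := le_antisymm ((h.fl_fl le_rfl hP.le hP.inv).ge.trans
    (commutator_mono h1 le_rfl)) (commutator_mono hD.le_sy le_rfl)
  refine h.le_of_sy le_rfl h.nH fun s hs => inf_le_right.trans ?_
  by_cases k : p = s
  · subst k; exact left_le_normalizer_commutator _ _
  haveI := Fact.mk hs
  rw [e]
  exact le_normalizer_of_commutator_le ((commutator_mono (commutator_le_left' hD.inv) le_rfl).trans
    (h.b_w k hD (h.sy_pv s) ((h.sy_pv s).le.trans (core_nrm _ H).norm)))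
/-- (L1) -/
theorem l1 (pq : p ≠ q) (hs : Group.IsSolvable H)
    (h1 : ⁅sy p A H ⊓ 𝐍((sy q A H ⊓ core2 {q}ᶜ {q} H : Subgroup G)), A⁆ ≤
      𝐂((sy q A H ⊓ core2 {q}ᶜ {q} H : Subgroup G))) : ⁅sy p A H, A⁆ ≤ core {q}ᶜ H := by
  have hV := Syl.inf_of_nrm (h.sy_syl q) (core2_nrm {q}ᶜ {q} H)
  have nV : A ≤ 𝐍((sy q A H ⊓ core2 {q}ᶜ {q} H : Subgroup G)) :=
    H2.le_normalizer_inf (h.sy_pv q).inv (le_normalizer_core2 _ _ h.nH)
  have e := core2_eq_sup (π := {q}ᶜ) (h.sy_syl q).hall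
  have c := solvable_p_constrained hs hV
  generalize sy q A H ⊓ core2 {q}ᶜ {q} H = V at *
  have hO := core_nrm {q}ᶜ H
  have h2 := Syl.frattini' hV (core2_nrm _ _ H)
  have nN := H2.le_normalizer_inf h.nH (H2.le_normalizer_normalizer nV)
  have h3 := h.sy_le_sup p hO (le_normalizer_core _ h.nH) inf_le_left nN (h2.ge.trans (by
    rw [e, sup_assoc]
    exact sup_le_sup_left (sup_le (le_inf (hV.le.trans (core2_le _ _ H)) le_normalizer) le_rfl) _))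
  have h4 : (H ⊓ 𝐍(V)) ⊓ sy p A H ≤ sy p A H ⊓ 𝐍(V) := le_inf inf_le_right
    (inf_le_left.trans inf_le_right)
  have h5 := (h.sy_pv p).inf (H2.le_normalizer_normalizer nV)
  refine (commutator_mono h3 le_rfl).trans (H2.commutator_sup_left_le le_normalizer
    ((inf_le_left.trans inf_le_left).trans hO.norm)
    (commutator_le_left' (le_normalizer_core _ h.nH)) ((commutator_mono h4 le_rfl).trans ?_))
  have h6 := (pNil_core2 q H).le_core ((le_inf h5.fl.le h1).trans c)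
    (piG_compl_of_isPGroup_ne h5.fl.pg pq)
  rwa [core_core2] at h6

end Hy

/-- (HH) -/
theorem hh (pq : p ≠ q) (hR : ♯R = r) (r2 : r ≠ 2) (rp : r ≠ p) (rq : r ≠ q) (hU : IsPGroup q U)
    (hV : IsPGroup p V) (n1 : R ≤ 𝐍(U)) (n2 : R ≤ 𝐍(V)) (n3 : U ≤ 𝐍(V)) (h1 : V ⊓ 𝐂(R) ≤ 𝐂(U))
    (h2 : q ≠ 2 ∨ U ⊓ 𝐂(R) = ⊥) : ⁅U, R⁆ ≤ 𝐂(V) := by
  have cU : (♯R).Coprime ♯U := coprime_of_isPGroup_ne (isPGroup_of_card_prime hR) hU rq
  have u1 : ⁅⁅U, R⁆, R⁆ = ⁅U, R⁆ := H2.commutator_commutator_eq n1 cU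
  have u2 : ⁅U, R⁆ ≤ U := commutator_le_left' n1
  have u3 : R ≤ 𝐍(⁅U, R⁆) := right_le_normalizer_commutator U R
  have u4 := h2.imp id fun k => eq_bot_iff.2 ((inf_le_inf_right 𝐂(R) u2).trans k.le)
  have u5 := h1.trans (cent_anti u2)
  have u6 := u2.trans n3
  have u7 := isPGroup_of_le u2 hU
  generalize ⁅U, R⁆ = D at *
  have c : ∀ X : Subgroup G, IsPGroup p X → (♯D).Coprime ♯X := fun X a =>
    coprime_of_isPGroup_ne u7 a pq.symm
  have w1 : ⁅⁅V, D⁆, D⁆ = ⁅V, D⁆ := H2.commutator_commutator_eq u6 (c _ hV)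
  have w2 : ⁅V, D⁆ ≤ V := commutator_le_left' u6
  have w3 : D ≤ 𝐍(⁅V, D⁆) := right_le_normalizer_commutator V D
  have w4 : R ≤ 𝐍(⁅V, D⁆) := H2.le_normalizer_commutator n2 u3
  have w5 := isPGroup_of_le w2 hV
  have w6 := (inf_le_inf_right 𝐂(R) w2).trans u5
  rw [le_cent_iff_commutator']
  generalize ⁅V, D⁆ = W at *
  have f1 := le_normalizer_phi w3
  have f2 := le_normalizer_phi w4
  have f3 := isPGroup_of_le (phi_le W) w5
  have cR : (♯R).Coprime ♯(phi W) := coprime_of_isPGroup_ne (isPGroup_of_card_prime hR) f3 rp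
  have k0 : bar (phi W) W ⊓ 𝐂(bar (phi W) R) = ⊥ := by
    rw [← bar_inf_cent f2 cR (.inr (isSolvable_of_isPGroup f3)) (phi_le W)]
    exact bar_eq_bot (((le_inf inf_le_left w6).trans
      (H2.centralizer_le_commutator_of_commutator_eq w3 (c _ w5) w1)).trans (der_le_phi w5))
  have k1 : ♯(bar (phi W) R) = r := (card_bar_of_coprime f2 cR).trans hR
  have k2 := isPGroup_bar u7 (phi W)
  have k3 := bar_le_normalizer (phi W) u3
  have k4 := isSolvable_sup (isSolvable_of_isPGroup k2)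
    (isSolvable_of_isPGroup (isPGroup_of_card_prime k1)) k3
  have k5 := coprime_of_isPGroup_ne k2 (isPGroup_of_card_prime k1) rq.symm
  have k6 := sup_le (bar_le_normalizer (phi W) w3) (bar_le_normalizer (phi W) w4)
  have k7 := (piG_compl_of_isPGroup_ne k2 pq.symm).sup ((piG_of_card_prime hr.out k1).2 rp) k3
  have k8 : bar (phi W) D ≤ 𝐂(bar (phi W) W) := by
    by_cases e : q = 2
    · by_cases e0 : bar (phi W) D = ⊥
      · rw [e0]; exact bot_le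
      refine (Frobenius_Wielandt_fixpoint (frob_of_semiReg (semiReg_of_card_prime (k1 ▸ hr.out) ?_) k3
        e0 (ne_bot_of_card_prime hr.out k1)) k4 k6
        (coprime_of_isPGroup (isPGroup_bar w5 _) k7) (isSolvable_of_isPGroup (isPGroup_bar w5 _))).2.1 k0
      rw [← bar_inf_cent' f2 u3 f1 (coprime_of_isPGroup_ne (isPGroup_of_card_prime hR) u7 rq)
        (.inr (isSolvable_of_isPGroup u7)), u4.resolve_left (not_not.2 e), bar_bot]
    · have := odd_prime_sdprod_abelem_cent1 k4 (Nat.not_even_iff_odd.1 fun k =>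
        piG_compl_singleton.1 ((piG_compl_of_isPGroup_ne k2 e).sup
          ((piG_of_card_prime hr.out k1).2 r2) k3) k.two_dvd)
        (sdp_sup_of_coprime k3 k5) k5 (k1 ▸ hr.out) (abelem_bar_phi w5) k6 k7 k0
      rwa [← bar_commutator f1 f2, u1] at this
  rw [bar_le_cent_iff f1 (phi_nrm W).norm, commutator_comm, w1] at k8
  by_contra k
  exact (phi_lt k).not_ge k8

theorem Hy.nl_of_rank_one (h : Hy r A H) (h1 : ♯A = r) (p : ℕ) [Fact p.Prime] : NL p A H := by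
  intro q hq qp V U hV hU n
  haveI := Fact.mk hq
  by_cases v0 : V = ⊥
  · rw [v0, cent_bot]; exact le_top
  by_cases u0 : U = ⊥
  · rw [u0, commutator_bot_left]; exact bot_le
  refine hh qp.symm h1 h.r2 (fun e => h.cop ?_) (fun e => h.cop ?_) hU.pg hV.pg hU.inv hV.inv n
    (h.kk qp.symm hV hU n) (or_iff_not_imp_left.2 fun k => ?_)
  · exact e ▸ (dvd_card_of_isPGroup hV.pg v0).trans (card_dvd_of_le' hV.le)
  · exact e ▸ (dvd_card_of_isPGroup hU.pg u0).trans (card_dvd_of_le' hU.le)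
  · obtain rfl := not_not.1 k
    exact h.two hU

end Cfsg.Agent.MP
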