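import Cfsg.Agent.MP.IB

/-! Section C: operator groups of rank two (see notes/s1917_plan.md). -/

set_option autoImplicit false
set_option linter.unusedSectionVars false

namespace Cfsg.Agent.MP

open Subgroup Cfsg.Agent.FT Cfsg.Agent.SF Cfsg.Agent.H1
open scoped commutatorElement

universe u
variable {G : Type u} [Group G] [Finite G] {r p q : ℕ} [hr : Fact r.Prime] [hp' : Fact p.Prime]
  [hq : Fact q.Prime] {A H K L M N R T U V W X Y : Subgroup G} {a b c g x : G}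

namespace Hy

variable (h : Hy r A H) (h2 : ♯A = r ^ 2)
include h h2

theorem sup_zp (ha : a ∈ A) (h1 : a ≠ 1) (hb : b ∈ A) (hab : b ∉ zpowers a) :
    zpowers a ⊔ zpowers b = A := by
  have a1 := zpowers_le.2 ha
  have b1 := zpowers_le.2 hb
  have b0 : b ≠ 1 := fun e => hab (e ▸ one_mem _)
  have i : zpowers a ⊓ zpowers b = ⊥ := by
    rw [inf_comm]
    exact (inf_eq_bot_or_le_of_card_prime (h.card_zp hb b0 ▸ hr.out) _).resolve_right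
      fun k => hab (k (mem_zpowers b))
  refine eq_of_le_of_card_le (sup_le a1 b1) ?_
  rw [card_sup_of_inf_eq_bot ((b1.trans (h.ab.trans (cent_anti a1))).trans (cent_le_norm _)) i,
    h.card_zp ha h1, h.card_zp hb b0, h2, sq]
theorem zp_symm (ha : a ∈ A) (h1 : a ≠ 1) (hb : b ∈ A) (hab : b ∉ zpowers a) : a ∉ zpowers b := fun k => by
  have b0 : b ≠ 1 := fun e => hab (e ▸ one_mem _)
  exact hab ((eq_of_le_of_card_le (zpowers_le.2 k) (by rw [h.card_zp ha h1, h.card_zp hb b0])).ge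
    (mem_zpowers b))
theorem c_ex (a : G) : ∃ b ∈ A, b ∉ zpowers a := by
  by_contra! k
  exact not_isCyclic_of_card h.exp h2.ge (isCyclic_of_le' k inferInstance)
theorem exists_two (ha : a ∈ A) : ∃ b ∈ A, ∃ c ∈ A, b ∉ zpowers a ∧ c ∉ zpowers a ∧ c ∉ zpowers b := by
  obtain ⟨b, hb, h1⟩ := h.c_ex h2 a
  by_cases a0 : a = 1
  · obtain ⟨c, hc, h3⟩ := h.c_ex h2 b
    exact ⟨b, hb, c, hc, h1, fun k => h3 (by rw [a0, zpowers_one_eq_bot, mem_bot] at k; rw [k]; exact one_mem _), h3⟩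
  refine ⟨b, hb, a * b, mul_mem ha hb, h1, fun k => h1 ?_, fun k => h.zp_symm h2 ha a0 hb h1 ?_⟩
  · exact (mul_mem_cancel_left (mem_zpowers a)).1 k
  · exact (mul_mem_cancel_right (mem_zpowers b)).1 k
theorem cen_cen (ha : a ∈ A) (h1 : a ≠ 1) (hb : b ∈ A) (hab : b ∉ zpowers a) :
    (𝐂[a] ⊓ 𝐂[b] : Subgroup G) = 𝐂(A) := by
  rw [← cent_zpowers, ← cent_zpowers, ← cent_sup, h.sup_zp h2 ha h1 hb hab]
theorem fl_eq (ha : a ∈ A) (h1 : a ≠ 1) (hb : b ∈ A) (hab : b ∉ zpowers a) (hU : U ≤ 𝐂[a])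
    (n : A ≤ 𝐍(U)) : ⁅U, zpowers b⁆ = ⁅U, A⁆ := by
  refine le_antisymm (commutator_mono le_rfl (zpowers_le.2 hb)) ?_
  rw [← h.sup_zp h2 ha h1 hb hab]
  have k : zpowers a ≤ 𝐂(U) := zpowers_le.2 (le_cent1_iff.1 hU)
  refine H2.commutator_sup_right_le (H2.le_normalizer_commutator (k.trans (cent_le_norm U))
    (((zpowers_le.2 ha).trans (h.ab.trans (cent_anti (zpowers_le.2 hb)))).trans (cent_le_norm _)))
    (right_le_normalizer_commutator _ _) ?_ le_rfl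
  rw [le_cent_iff_commutator'.1 k]; exact bot_le
/-- generation by the fixed points -/
theorem g0 (hX : X ≤ H) (n : A ≤ 𝐍(X)) (h1 : ∀ a ∈ A, a ≠ 1 → X ⊓ 𝐂[a] ≤ Y) : X ≤ Y :=
  H2.le_of_forall_centralizer_le (comm_iff_le_cent.2 h.ab) (not_isCyclic_of_card h.exp h2.ge) n
    (h.cp le_rfl hX) h1
theorem c_gen (hW : Pv p A H W) (hR : R ≤ A) (e : ⁅W, R⁆ = W)
    (h1 : ∀ b ∈ A, b ≠ 1 → ¬ R ≤ 𝐂((W ⊓ 𝐂[b] : Subgroup G)) → ⁅W ⊓ 𝐂[b], A⁆ ≤ Y) : W ≤ Y := by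
  have n := le_normalizer_phi hW.inv
  have nR := hR.trans n
  suffices k : W ≤ (W ⊓ Y) ⊔ phi W from (eq_of_sup_phi inf_le_left k).ge.trans inf_le_right
  have c0 : W ⊓ 𝐂(R) ≤ phi W := (H2.centralizer_le_commutator_of_commutator_eq (hR.trans hW.inv)
    (h.cp hR hW.le) e).trans (der_le_phi hW.pg)
  refine h.g0 h2 hW.le hW.inv fun b hb b1 => ?_
  by_cases k : R ≤ 𝐂((W ⊓ 𝐂[b] : Subgroup G))
  · exact ((le_inf inf_le_left (cent_symm k)).trans c0).trans le_sup_right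
  have hb' := hW.inf (h.n_cent1 hb)
  exact (h.dec le_rfl hb'.le hb'.inv).le.trans (sup_le_sup (le_inf ((commutator_le_left' hb'.inv).trans inf_le_left)
    (h1 b hb b1 k)) ((inf_le_inf inf_le_left (cent_anti hR)).trans c0))
/-- (G1) -/
theorem g1 (hX : Pv p A H X) (h1 : ∀ a ∈ A, a ≠ 1 → ⁅X ⊓ 𝐂[a], A⁆ ≤ Y) : ⁅X, A⁆ ≤ Y :=
  h.c_gen h2 hX.fl le_rfl (h.fl_fl le_rfl hX.le hX.inv) fun b hb b1 _ =>
    (commutator_mono (inf_le_inf_right _ (commutator_le_left' hX.inv)) le_rfl).trans (h1 b hb b1)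
/-- (G2) -/
theorem g2 (hX : Pv p A H X) (ha : a ∈ A)
    (h1 : ∀ b ∈ A, b ∉ zpowers a → ⁅X ⊓ 𝐂[b], A⁆ ≤ Y) : ⁅X, zpowers a⁆ ≤ Y := by
  have a1 := zpowers_le.2 ha
  have n := a1.trans hX.inv
  refine h.c_gen h2 (hX.of_le (commutator_le_left' n) (H2.le_normalizer_commutator hX.inv
    ((h.ab.trans (cent_anti a1)).trans (cent_le_norm _)))) a1 (h.fl_fl a1 hX.le n) fun b hb b1 k =>
    (commutator_mono (inf_le_inf_right _ (commutator_le_left' n)) le_rfl).trans (h1 b hb fun k1 => k ?_)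
  by_cases a0 : a = 1
  · rw [a0, zpowers_one_eq_bot]; exact bot_le
  rw [← eq_of_le_of_card_le (zpowers_le.2 k1) (by rw [h.card_zp ha a0, h.card_zp hb b1])]
  exact cent_symm (inf_le_right.trans (cent_zpowers b).ge)
/-- (M2) -/
theorem m2 (pq : p ≠ q) (hV : Pv p A H V) (hU : Pv q A H U) (n : U ≤ 𝐍(V)) (ha : a ∈ A)
    (h1 : a ≠ 1) (hUa : U ≤ 𝐂[a]) (hb : b ∈ A) (hab : b ∉ zpowers a)
    (h3 : V ⊓ 𝐂[b] ≤ 𝐂(⁅U, A⁆)) : ⁅U, A⁆ ≤ 𝐂(V) := by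
  have b0 : b ≠ 1 := fun e => hab (e ▸ one_mem _)
  have b1 := zpowers_le.2 hb
  have hD := hU.fl
  have d1 : ⁅U, A⁆ ≤ U := commutator_le_left' hU.inv
  by_cases v0 : V = ⊥
  · rw [v0, cent_bot]; exact le_top
  by_cases u0 : U = ⊥
  · rw [u0, commutator_bot_left]; exact bot_le
  rw [← h.fl_fl le_rfl hU.le hU.inv, ← h.fl_eq h2 ha h1 hb hab (d1.trans hUa) hD.inv]
  refine hh pq (h.card_zp hb b0) h.r2 (fun e => h.cop ?_) (fun e => h.cop ?_) hD.pg hV.pg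
    (b1.trans hD.inv) (b1.trans hV.inv) (d1.trans n) (by rwa [cent_zpowers])
    (or_iff_not_imp_left.2 fun k => ?_)
  · exact e ▸ (dvd_card_of_isPGroup hV.pg v0).trans (card_dvd_of_le' hV.le)
  · exact e ▸ (dvd_card_of_isPGroup hU.pg u0).trans (card_dvd_of_le' hU.le)
  · obtain rfl := not_not.1 k
    rw [cent_zpowers, eq_bot_iff, ← h.two hD, ← h.cen_cen h2 ha h1 hb hab]
    exact le_inf inf_le_left (inf_le_inf_right _ (d1.trans hUa))
/-- (M1) -/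
theorem m1 (pq : p ≠ q) (hV : Pv p A H V) (hU : Pv q A H U) (n : U ≤ 𝐍(V)) (ha : a ∈ A)
    (h1 : a ≠ 1) (hUa : U ≤ 𝐂[a]) : ⁅U, A⁆ ≤ 𝐂((V ⊓ 𝐂[a] : Subgroup G)) := by
  obtain ⟨b, hb, hab⟩ := h.c_ex h2 a
  have n' : U ≤ 𝐍((V ⊓ 𝐂[a] : Subgroup G)) := H2.le_normalizer_inf n (hUa.trans le_normalizer)
  refine h.m2 h2 pq (hV.inf (h.n_cent1 ha)) hU n' ha h1 hUa hb hab ?_
  rw [inf_assoc, h.cen_cen h2 ha h1 hb hab]
  exact (h.kk pq hV hU n).trans (cent_anti (commutator_le_left' hU.inv))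
/-- (M3) -/
theorem m3 (pq : p ≠ q) (hV : Pv p A H V) (hT : Pv q A H T) (n : T ≤ 𝐍(V)) (ha : a ∈ A)
    (h3 : V ⊓ 𝐂[a] ≤ 𝐂(A)) : ⁅T, zpowers a⁆ ≤ 𝐂(V) := by
  by_cases a0 : a = 1
  · rw [a0, zpowers_one_eq_bot, commutator_bot_right]; exact bot_le
  refine h.g2 h2 hT ha fun b hb hab => ?_
  have hb' := hT.inf (h.n_cent1 hb)
  exact h.m2 h2 pq hV hb' (inf_le_left.trans n) hb (fun e => hab (e ▸ one_mem _)) inf_le_right ha
    (h.zp_symm h2 ha a0 hb hab) (((le_inf inf_le_left h3).trans (h.kk pq hV hT n)).trans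
      (cent_anti ((commutator_le_left' hb'.inv).trans inf_le_left)))
theorem large (h3 : ¬ NL p A H) :
    ∃ a ∈ A, a ≠ 1 ∧ ∀ b ∈ A, b ∉ zpowers a → ¬ sy p A H ⊓ 𝐂[b] ≤ 𝐂(A) := by
  by_contra! k
  refine h3 fun q hq qp V U hV hU n => ?_
  haveI := Fact.mk hq
  refine h.g1 h2 hU fun a ha a1 => ?_
  obtain ⟨b, hb, hab, k1⟩ := k a ha a1
  have ha' := hU.inf (h.n_cent1 ha)
  exact h.m2 h2 qp.symm hV ha' (inf_le_left.trans n) ha a1 inf_le_right hb hab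
    (((le_inf inf_le_left ((inf_le_inf_right _ hV.le_sy).trans k1)).trans (h.kk qp.symm hV hU n)).trans
      (cent_anti ((commutator_le_left' ha'.inv).trans inf_le_left)))
theorem nl_of_small (h3 : Small p A H) : NL p A H := by
  by_contra k
  obtain ⟨a, ha, -, k1⟩ := h.large h2 k
  obtain ⟨c, hc, c1, k2⟩ := h3
  have k3 : ∀ b ∈ A, b ∉ zpowers a → b ∈ zpowers c := fun b hb hab => by_contra fun k4 =>
    k1 b hb hab ((inf_le_inf_right _ k2).trans (h.cen_cen h2 hc c1 hb k4).le)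
  obtain ⟨b, hb, d, hd, e1, e2, e3⟩ := h.exists_two h2 ha
  have b0 : b ≠ 1 := fun e => e1 (e ▸ one_mem _)
  exact e3 ((eq_of_le_of_card_le (zpowers_le.2 (k3 b hb e1))
    (by rw [h.card_zp hb b0, h.card_zp hc c1])).ge (k3 d hd e2))
theorem c_nn (pq : p ≠ q) (ha : a ∈ A) (h1 : a ≠ 1) (hs : Group.IsSolvable H) (hc : H ≤ 𝐂[a]) :
    ⁅sy p A H, A⁆ ≤ core {q}ᶜ H := by
  have hV := (h.sy_pv q).inf (le_normalizer_core2 {q}ᶜ {q} h.nH)
  have k := h.m1 h2 pq.symm hV ((h.sy_pv p).inf (H2.le_normalizer_normalizer hV.inv)) inf_le_right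
    ha h1 ((inf_le_left.trans (h.sy_pv p).le).trans hc)
  rw [inf_eq_left.2 (hV.le.trans hc)] at k
  exact h.l1 pq hs k
/-- (N) -/
theorem nn (pq : p ≠ q) (ha : a ∈ A) (h1 : a ≠ 1) (hs : Group.IsSolvable (H ⊓ 𝐂[a] : Subgroup G)) :
    ⁅sy p A H ⊓ 𝐂[a], A⁆ ≤ 𝐂(⁅sy q A H ⊓ 𝐂[a], A⁆) := by
  have n := H2.le_normalizer_inf h.nH (h.n_cent1 ha)
  obtain ⟨E, e1, e2⟩ := exists_invariant_hall {p, q} n (h.cp le_rfl inf_le_left) hs
  have eH := e1.le.trans inf_le_left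
  have hE := h.mono eH e2
  have k : ∀ s : ℕ, [Fact s.Prime] → s ∈ ({p, q} : Set ℕ) → sy s A H ⊓ 𝐂[a] ≤ sy s A E :=
    fun s _ hs' => by
    have k1 := Syl.trans_hall (hE.sy_syl s) e1 hs'
    have k2 := (h.sy_pv s).inf (h.n_cent1 ha)
    exact (k1.eq_of_le k2.pg (le_inf ((hE.sy_pv s).mono eH).le_sy
      ((hE.sy_pv s).le.trans (e1.le.trans inf_le_right))) (inf_le_inf_right _ (h.sy_pv s).le)).le
  have sE := isSolvable_of_le e1.le hs
  have c1 := (commutator_mono (k p (.inl rfl)) le_rfl).trans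
    (hE.c_nn h2 pq ha h1 sE (e1.le.trans inf_le_right))
  have c2 := (commutator_mono (k q (.inr rfl)) le_rfl).trans
    (hE.c_nn h2 pq.symm ha h1 sE (e1.le.trans inf_le_right))
  have e : core {p}ᶜ E = core {q} E := core_congr fun s hs hd => by
    rcases e1.piG s hs hd with rfl | rfl
    · simpa using pq
    · simpa using pq.symm
  rw [e] at c2
  exact c1.trans ((cent_symm (core_le_cent_core_compl {q} E)).trans (cent_anti c2))

end Hy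

end Cfsg.Agent.MP
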