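import Cfsg.Agent.MP.IS

/-! Section D: structure of solvable invariant subgroups, factorizations (see notes/s1917_plan.md). -/

set_option autoImplicit false
set_option linter.unusedSectionVars false

namespace Cfsg.Agent.MP

open Subgroup Cfsg.Agent.FT Cfsg.Agent.SF Cfsg.Agent.H1
open scoped commutatorElement

universe u
variable {G : Type u} [Group G] [Finite G] {r p q : ℕ} [hr : Fact r.Prime] [hp' : Fact p.Prime]
  [hq : Fact q.Prime] {A H K L M N R T U V W X Y : Subgroup G} {a b c g x : G}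

theorem d_mod (hA : IsPGroup r A) (n : A ≤ 𝐍(W)) (h : W ⊓ 𝐂(A) = ⊥) : ♯W ≡ 1 [MOD r] := by
  letI : MulAction A W := MulAction.compHom W (W.normalizerMonoidHom.comp (inclusion n))
  have h1 := hA.card_modEq_card_fixedPoints W
  have h2 : MulAction.fixedPoints A W = {1} := by
    ext w
    refine ⟨fun hw => Subtype.ext (mem_bot.1 (h.le ⟨w.2, mem_cent_iff.2 fun a ha => ?_⟩)), ?_⟩
    · exact mul_inv_eq_iff_eq_mul.1 (congrArg Subtype.val (hw ⟨a, ha⟩))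
    · rintro rfl a
      exact map_one (W.normalizerMonoidHom (inclusion n a))
  rwa [h2, Nat.card_coe_set_eq, Set.ncard_singleton] at h1

theorem d_ff {C : Subgroup G} (hA : IsPGroup r A) (r2 : r ≠ 2) (hV : Abelem 3 V)
    (hT : IsPGroup 2 T) (hC : IsPGroup 3 C) (n1 : T ≤ 𝐍(V)) (n2 : C ≤ 𝐍(V)) (n3 : A ≤ 𝐍(V))
    (n4 : C ≤ 𝐍(T)) (n5 : A ≤ 𝐍(T)) (c1 : C ≤ 𝐂(A)) (kk : V ⊓ 𝐂(A) ≤ 𝐂(T))
    (fa : ∀ E ≤ C, ⁅T, E⁆ ≤ 𝐂(V) → E ≤ 𝐂(V)) (n : ℕ) : ∀ E ≤ C, ♯(bar 𝐂(V) E) = n →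
      Abelem 3 (bar 𝐂(V) E) → n ^ 2 ≤ (𝐂(E)).relIndex V := by
  induction n using Nat.strong_induction_on with
  | _ n ih =>
  intro E hE hn ab
  have nN : 𝐍(V) ≤ 𝐍(𝐂(V)) := normalizer_le_normalizer_centralizer V
  have nE := hE.trans (n2.trans nN)
  have nT := n1.trans nN
  by_cases h0 : bar 𝐂(V) E = ⊥
  · rw [h0, card_bot] at hn
    subst hn
    exact Nat.one_le_iff_ne_zero.2 (relIndex_pos _ _).ne'
  have cp : ∀ X ≤ C, (♯X).Coprime ♯T := fun X hX =>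
    coprime_of_isPGroup_ne (isPGroup_of_le hX hC) hT (by decide)
  obtain ⟨B, hB, cB, b1⟩ : ∃ B ≤ bar 𝐂(V) E, ♯(bar 𝐂(V) E) = ♯B * 3 ∧
      ¬ bar 𝐂(V) T ⊓ 𝐂(B) ≤ 𝐂(bar 𝐂(V) E) := by
    by_contra! k
    exact h0 (bar_eq_bot (fa E hE ((bar_le_cent_iff nT nE).1
      (H2.le_of_forall_centralizer_hyperplane_le ab.1 ab.2 h0 (bar_le_normalizer _ (hE.trans n4))
        (coprime_bar (cp E hE) _) k))))
  have e0 : bar 𝐂(V) (E ⊓ unbar 𝐂(V) B) = B := by rw [bar_inf_unbar, inf_of_le_right hB]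
  have e1 : E ≤ 𝐍((E ⊓ unbar 𝐂(V) B : Subgroup G)) := H2.le_normalizer_inf le_normalizer
    (le_normalizer_unbar nE ((ab.le_cent.trans (cent_anti hB)).trans (cent_le_norm _)))
  have e2 : E ⊓ unbar 𝐂(V) B ≤ E := inf_le_left
  generalize E ⊓ unbar 𝐂(V) B = E0 at e0 e1 e2
  have e3 := e2.trans hE
  have i1 := ih ♯B (by have := card_pos' B; omega) E0 e3 (by rw [e0]) (e0 ▸ ab.of_le hB)
  rw [← e0, ← bar_inf_cent' (e2.trans nE) (e3.trans n4) nT (cp _ e3)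
    (.inr (isSolvable_of_isPGroup hT)), bar_le_cent_iff (inf_le_left.trans nT) nE] at b1
  have a0 : A ≤ 𝐍(𝐂(E0)) := H2.le_normalizer_centralizer
    ((cent_symm (e3.trans c1)).trans (cent_le_norm _))
  have aE : A ≤ 𝐍(E) := (cent_symm (hE.trans c1)).trans (cent_le_norm _)
  have f0 : E ≤ 𝐍(𝐂(E0)) := H2.le_normalizer_centralizer e1
  have t1 : E ≤ 𝐍((T ⊓ 𝐂(E0) : Subgroup G)) := H2.le_normalizer_inf (hE.trans n4) f0
  have t2 : A ≤ 𝐍((T ⊓ 𝐂(E0) : Subgroup G)) := H2.le_normalizer_inf n5 a0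
  have t3 : T ⊓ 𝐂(E0) ≤ T := inf_le_left
  have t4 : T ⊓ 𝐂(E0) ≤ 𝐂(E0) := inf_le_right
  generalize T ⊓ 𝐂(E0) = T1 at b1 t1 t2 t3 t4
  have u1 : ⁅T1, E⁆ ≤ T1 := commutator_le_left' t1
  have u2 : A ≤ 𝐍(⁅T1, E⁆) := H2.le_normalizer_commutator t2 aE
  have u3 := left_le_normalizer_commutator T1 E
  have u4 := right_le_normalizer_commutator T1 E
  have u5 : ∀ W, T1 ≤ 𝐍(W) → W ≤ 𝐂(E) → W ≤ 𝐂(⁅T1, E⁆) := fun W a b => cent_symm
    ((commutator_mono le_rfl (cent_symm b)).trans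
      (commutator_le_right' (H2.le_normalizer_centralizer a)))
  generalize ⁅T1, E⁆ = T2 at b1 u1 u2 u3 u4 u5
  have pT2 := isPGroup_of_le (u1.trans t3) hT
  have v0 : ¬ V ⊓ 𝐂(E0) ≤ 𝐂(T2) := fun k => b1 (cent_symm (H2.thompson_A_times_B hV.isPGroup
    (isPGroup_of_le e3 hC) (piG_compl_of_isPGroup_ne pT2 (by decide)).coprime_prime
    (u1.trans (t3.trans n1)) (e3.trans n2) (cent_symm (u1.trans t4)) k))
  have v1 : T1 ≤ 𝐍((V ⊓ 𝐂(E0) : Subgroup G)) := H2.le_normalizer_inf (t3.trans n1)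
    (H2.le_normalizer_centralizer (t4.trans (cent_le_norm _)))
  have v2 : A ≤ 𝐍((V ⊓ 𝐂(E0) : Subgroup G)) := H2.le_normalizer_inf n3 a0
  have v4 := relIndex_inf_mul_relIndex 𝐂(E) 𝐂(E0) V
  rw [inf_of_le_left (cent_anti e2), inf_comm] at v4
  have v5 : V ⊓ 𝐂(E0) ≤ V := inf_le_left
  generalize V ⊓ 𝐂(E0) = V1 at v0 v1 v2 v4 v5
  have ab1 := hV.of_le v5
  have w1 : ⁅V1, T2⁆ ≤ V1 := commutator_le_left' (u1.trans v1)
  have w2 : ⁅V1, T2⁆ ⊓ 𝐂(T2) = ⊥ := eq_bot_iff.2 ((le_inf (inf_le_inf_right _ w1 |>.trans le_rfl)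
    inf_le_left).trans (dp_of_coprime_comm (u1.trans v1)
      (coprime_of_isPGroup_ne pT2 ab1.isPGroup (by decide)) ab1.1).inf.le)
  have w3 : A ≤ 𝐍(⁅V1, T2⁆) := H2.le_normalizer_commutator v2 u2
  have w4 : T1 ≤ 𝐍(⁅V1, T2⁆) := H2.le_normalizer_commutator v1 u3
  have w5 : ⁅V1, T2⁆ ≠ ⊥ := fun k => v0 (le_cent_iff_commutator.2 k)
  generalize ⁅V1, T2⁆ = V2 at w1 w2 w3 w4 w5
  have w6 : V2 ⊓ 𝐂(A) = ⊥ := eq_bot_iff.2 ((le_inf inf_le_left ((inf_le_inf_right _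
    (w1.trans v5)).trans (kk.trans (cent_anti (u1.trans t3))))).trans w2.le)
  have m1 := d_mod hA w3 w6
  have m2 := d_mod hA (H2.le_normalizer_inf w3 (H2.le_normalizer_centralizer aE))
    (eq_bot_iff.2 ((inf_le_inf_right _ inf_le_left).trans w6.le))
  have m3 := SG.g_card 𝐂(E) V2
  have m4 : (𝐂(E)).relIndex V2 ≡ 1 [MOD r] := by
    have := (m2.mul_right ((𝐂(E)).relIndex V2)).symm
    rw [m3, one_mul] at this
    exact this.trans m1
  obtain ⟨i, hi⟩ := IsPGroup.iff_card.1 (ab1.of_le w1).isPGroup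
  obtain ⟨l, -, hl⟩ := (Nat.dvd_prime_pow Nat.prime_three).1 (hi ▸ relIndex_dvd_card 𝐂(E) V2)
  have m5 : 9 ≤ (𝐂(E)).relIndex V2 := by
    match l, hl with
    | 0, hl =>
      exact absurd (eq_bot_iff.2 ((le_inf le_rfl (u5 V2 w4 (relIndex_eq_one.1 hl))).trans w2.le)) w5
    | 1, hl =>
      rw [hl] at m4
      exact absurd ((Nat.prime_dvd_prime_iff_eq hr.out Nat.prime_two).1
        ((Nat.modEq_iff_dvd' (by decide)).1 m4.symm)) r2
    | l + 2, hl =>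
      rw [hl, pow_add]
      have := Nat.one_le_pow l 3 (by decide)
      omega
  have m6 := relIndex_le_of_le_right (H := 𝐂(E)) w1 (relIndex_pos _ _).ne'
  rw [← v4, ← hn, cB]
  calc (♯B * 3) ^ 2 = 9 * ♯B ^ 2 := by ring
    _ ≤ _ := Nat.mul_le_mul (m5.trans m6) i1

theorem d_core (pq : p ≠ q) (hπ : PiG {p, q} H) : core {q}ᶜ H = core {p} H :=
  core_congr fun s hs hd => by
    rcases hπ s hs hd with rfl | rfl
    · simpa using pq
    · simpa using pq.symm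

namespace Hy

variable (h : Hy r A H) (h2 : ♯A = r ^ 2)
include h h2

/-- (S2), the case `O_q = 1` -/
theorem s2 (pq : p ≠ q) (hs : Group.IsSolvable H) (hπ : PiG {p, q} H) (h0 : core {q} H = ⊥) :
    ⁅sy p A H, A⁆ ≤ core {p} H := by
  rw [← d_core pq hπ]
  have hT : Pv q A H (sy q A H ⊓ core2 {q}ᶜ {q} H) :=
    (h.sy_pv q).inf (le_normalizer_core2 _ _ h.nH)
  refine h.l1 pq hs ?_
  generalize sy q A H ⊓ core2 {q}ᶜ {q} H = T at hT
  have hX := (h.sy_pv p).inf (H2.le_normalizer_normalizer hT.inv)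
  have hV : Pv p A H (core {p} H) := ⟨core_le _ _, core_isPGroup _, le_normalizer_core _ h.nH⟩
  refine h.g1 h2 hX fun a ha a1 => ?_
  have hXa := hX.inf (h.n_cent1 ha)
  have hR := hXa.fl
  have l1 := commutator_le_left' hXa.inv
  have nT := l1.trans (inf_le_left.trans inf_le_right)
  have k := h.s2m h2 pq hV hT hR nT (hT.le.trans (core_nrm _ _).norm)
    (hR.le.trans (core_nrm _ _).norm) ha a1 (l1.trans inf_le_right) (h.fl_fl le_rfl hXa.le hXa.inv)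
  have k2 := commutator_le_left' nT
  refine le_cent_iff_commutator'.2 (eq_bot_iff.2 ((le_inf k2 ((le_inf (k2.trans hT.le) k).trans
    (cent_pcore_le hs ?_))).trans (inf_eq_bot_of_coprime'
      (coprime_of_isPGroup_ne hT.pg hV.pg pq.symm)).le))
  rw [d_core pq.symm (Set.pair_comm p q ▸ hπ), h0]
/-- (S3) -/
theorem s3 (pq : p ≠ q) (hs : Group.IsSolvable H) (hπ : PiG {p, q} H) :
    H ≤ core {q} H ⊔ (H ⊓ 𝐍(⁅sy p A H, A⁆)) := by
  have hO := core_nrm {q} H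
  have nO := le_normalizer_core {q} h.nH
  have hb := h.bar hO nO
  have k := hb.nrm_fl (hb.s2 ((card_bar_of_coprime nO (h.cp le_rfl hO.le)).trans h2) pq
    (isSolvable_bar hs _) (hπ.bar _) (core_bar_core _ _))
  have hF := (h.sy_pv p).fl
  rw [h.sy_bar p hO nO, ← bar_commutator ((h.sy_pv p).le.trans hO.norm) nO] at k
  generalize ⁅sy p A H, A⁆ = F at k hF
  have nF := hF.le.trans hO.norm
  have k1 : F ⊔ core {q} H ⊴ H := ⟨sup_le hF.le hO.le, le_normalizer_sup_of_bar nF hO.norm k⟩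
  have k2 : Syl p F (F ⊔ core {q} H) := by
    refine ⟨le_sup_left, hF.pg, fun hd => ?_⟩
    have e1 := card_mul_relIndex (le_sup_left : F ≤ F ⊔ core {q} H)
    rw [sup_comm, card_sup_of_inf_eq_bot nF (inf_eq_bot_of_coprime'
      (coprime_of_isPGroup_ne (core_isPGroup H) hF.pg pq.symm)), mul_comm ♯(core {q} H)] at e1
    rw [sup_comm, Nat.eq_of_mul_eq_mul_left (card_pos' F) e1] at hd
    exact pq (eq_of_isPGroup_of_dvd (core_isPGroup H) hp'.out hd)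
  refine (Syl.frattini' k2 k1).ge.trans (sup_le (sup_le ?_ le_sup_left) le_sup_right)
  exact le_sup_of_le_right (le_inf hF.le le_normalizer)
/-- Thompson factorization for the primes `3, 2` -/
theorem tf3 (hs : Group.IsSolvable H) (hπ : PiG {3, 2} H) (h0 : core {2} H = ⊥) (hY : Y ≤ sy 3 A H)
    (n : A ≤ 𝐍(Y)) (hc : sy 3 A H ≤ 𝐂(Y)) (he : ∀ y ∈ Y, y ^ 3 = 1) :
    IsProd H (H ⊓ 𝐍(JJ 3 (sy 3 A H))) (H ⊓ 𝐂(Y)) := by
  have hP := h.sy_syl 3
  have pP := h.sy_pv 3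
  have pT := h.sy_pv 2
  have dP : sy 3 A H ≤ core {3} H ⊔ (sy 3 A H ⊓ 𝐂(A)) :=
    (h.dec le_rfl pP.le pP.inv).le.trans (sup_le_sup_right (h.s2 h2 (by decide) hs hπ h0) _)
  have nT : sy 3 A H ⊓ 𝐂(A) ≤ 𝐍(sy 2 A H) := (inf_le_inf_right _ pP.le).trans (h.cen_norm_sy 2)
  have hPT : sy 3 A H ⊔ sy 2 A H = H := Hall.sup_eq (Syl.hall hP)
    ((Syl.hall (h.sy_syl 2)).congr fun s hs hd => by rcases hπ s hs hd with rfl | rfl <;> simp)
  have h0' : core {3}ᶜ H = ⊥ := by rw [d_core (by decide) (Set.pair_comm 3 2 ▸ hπ), h0]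
  generalize sy 3 A H = P at *
  generalize sy 2 A H = T at *
  have hQ := core_le_syl hP
  have a1 : SG.ncl Y H ≤ SG.OZ 3 (core {3} H) := SG.ncl_le fun g hg => by
    rw [← cj_eq_iff_mem_normalizer.2 (SG.norm_OZ 3 _ ((core_nrm {3} H).norm hg))]
    exact cj_mono g fun y hy => ⟨cent_pcore_le hs h0' ⟨hP.le (hY hy), cent_symm (hQ.trans hc) hy⟩,
      cent_symm (hQ.trans hc) hy, he y hy⟩
  have a2 : AbE 3 (SG.ncl Y H) := ⟨comm_iff_le_cent.2 ((a1.trans (SG.OZ_cent _ _)).trans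
    (cent_anti (a1.trans (SG.OZ_le _ _)))), fun v hv => (a1 hv).2.2⟩
  have nV := SG.le_norm_ncl Y H
  have hK : H ⊓ 𝐂(SG.ncl Y H) ⊴ H := nrm_inf_centralizer nV
  have a3 : core {3} (FT.bar (H ⊓ 𝐂(SG.ncl Y H)) H) = ⊥ := by
    have b1 := nrm_unbar_of_nrm_bar hK (core_nrm {3} _)
    rw [← bar_unbar (core {3} _)]
    refine bar_eq_bot (le_inf b1.le (SG.le_cent_ncl b1.norm ?_))
    rw [← (Syl.inf_of_nrm hP b1).hall.sup_eq_of_relIndex (le_unbar _)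
      (by rw [relIndex_unbar_self]; exact core_piG _ _)]
    exact sup_le (inf_le_left.trans hc) (inf_le_right.trans (cent_anti (SG.le_ncl Y H)))
  have a4 : core {3} H ≤ 𝐂(SG.ncl Y H) := cent_symm (a1.trans (SG.OZ_cent _ _))
  have a5 : SG.ncl Y H ≤ P := a1.trans ((SG.OZ_le _ _).trans hQ)
  have a6 : A ≤ 𝐍(SG.ncl Y H) := SG.norm_ncl n h.nH
  have a7 := SG.le_ncl Y H
  generalize SG.ncl Y H = V at *
  have pV := pP.of_le a5 a6
  have fa : ∀ E ≤ P ⊓ 𝐂(A), ⁅T, E⁆ ≤ 𝐂(V) → E ≤ 𝐂(V) := fun E hE k => by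
    have eH := hE.trans (inf_le_left.trans pP.le)
    have b1 : FT.bar (H ⊓ 𝐂(V)) P ≤ 𝐍(FT.bar (H ⊓ 𝐂(V)) T) := by
      refine (bar_mono _ dP).trans ?_
      rw [bar_sup_of_le (inf_le_left.trans (pP.le.trans hK.norm)) (le_inf (core_le _ _) a4)]
      exact bar_le_normalizer _ nT
    have b2 : FT.bar (H ⊓ 𝐂(V)) P ⊓ 𝐂(FT.bar (H ⊓ 𝐂(V)) T) ≤ ⊥ := by
      rw [← a3]
      refine le_pcore ⟨inf_le_left.trans (bar_mono _ pP.le), ?_⟩
        (isPGroup_of_le inf_le_left (isPGroup_bar pP.pg _))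
      refine (bar_mono _ hPT.ge).trans ?_
      rw [bar_sup (pP.le.trans hK.norm) (pT.le.trans hK.norm)]
      exact sup_le (H2.le_normalizer_inf le_normalizer (H2.le_normalizer_centralizer b1))
        ((cent_symm inf_le_right).trans (cent_le_norm _))
    refine ((bar_eq_bot_iff (eH.trans hK.norm)).1 (le_bot_iff.1 ((le_inf (bar_mono _
      (hE.trans inf_le_left)) (cent_symm ((bar_le_cent_iff (pT.le.trans hK.norm)
        (eH.trans hK.norm)).2 (le_inf ?_ k)))).trans b2))).trans inf_le_right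
    exact (commutator_mono pT.le eH).trans (der_le H)
  have nN : H ≤ 𝐍(𝐂(V)) := H2.le_normalizer_centralizer nV
  have hJ : JJ 3 P ≤ 𝐂(V) := JJ_le_iff.2 fun X hX => by
    have nX := hX.1.trans (pP.le.trans nN)
    have nC : P ⊓ 𝐂(A) ≤ _ := inf_le_left.trans (pP.le.trans nN)
    have e : FT.bar 𝐂(V) (P ⊓ 𝐂(A) ⊓ unbar 𝐂(V) (FT.bar 𝐂(V) X)) = FT.bar 𝐂(V) X := by
      rw [bar_inf_unbar, inf_of_le_right ((bar_mono _ (hX.1.trans dP)).trans
        (bar_sup_of_le nC a4).le)]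
    have k := d_ff h.pgA h.r2 a2 pT.pg (isPGroup_of_le inf_le_left pP.pg) (pT.le.trans nV)
      (inf_le_left.trans (pP.le.trans nV)) a6 nT pT.inv inf_le_right
      (h.kk (by decide) pV pT (pT.le.trans nV)) fa _ _ inf_le_left rfl (e ▸ abelem_bar hX.2.1 _)
    have k1 := SG.offender hX a2 a5
    have k2 : 𝐂(X) ⊓ V ≤ 𝐂((P ⊓ 𝐂(A) ⊓ unbar 𝐂(V) (FT.bar 𝐂(V) X) : Subgroup G)) := by
      refine le_trans ?_ (cent_anti inf_le_right)
      rw [unbar_bar nX, cent_sup]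
      exact inf_le_inf_left _ (cent_symm le_rfl)
    have k3 := relIndex_le_of_le_left k2 (L := V) (relIndex_pos _ _).ne'
    rw [inf_relIndex_right] at k3
    rw [e] at k
    rw [← card_bar nX] at k1
    have k4 := k.trans (k3.trans k1)
    have k5 := card_pos' (FT.bar 𝐂(V) X)
    exact (bar_eq_bot_iff nX).1 (card_eq_one.1 (by nlinarith))
  refine IsProd.symm fun g hg => ?_
  rw [← Syl.frattini' (Syl.inf_of_nrm hP hK) hK] at hg
  obtain ⟨k, hk, n, hn, rfl⟩ := (mem_sup_iff_of_le_normalizer' (inf_le_left.trans hK.norm)).1 hg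
  refine ⟨k, ⟨hk.1, cent_anti a7 hk.2⟩, n, ⟨hn.1, ?_⟩, rfl⟩
  rw [← JJ_eq_of_le (le_inf (JJ_le P) (le_inf ((JJ_le P).trans hP.le) hJ)) inf_le_left]
  exact normalizer_le_normalizer_JJ _ hn.2

end Hy

/-- the ZJ-theorem for solvable groups -/
theorem zj' (h2 : q ≠ 2) (hs : Group.IsSolvable L) (h3 : q = 3 → ∀ T, Syl 2 T L → T ≤ 𝐂(T))
    {P : Subgroup G} (hP : Syl q P L) : L ≤ core {q}ᶜ L ⊔ (L ⊓ 𝐍(ZJ q P)) := by
  have h1 := ZJ_normal (n := q) h2 (.inr rfl) (nStable_of_not_sec h2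
    (not_sec_SL2_of_solvable h2 inferInstance fun e T => by
      obtain ⟨T0, rfl⟩ := Sylow.mapSurjective_surjective (QuotientGroup.mk'_surjective _) 2 T
      refine isMulCommutative_of_forall ?_
      rintro _ ⟨a, ha, rfl⟩ _ ⟨b, hb, rfl⟩
      rw [← map_mul, ← map_mul]
      exact congrArg _ (Subtype.ext
        (mem_cent_iff.1 (h3 e _ (isSylowIn_map_subtype T0) ⟨b, hb, rfl⟩) a ⟨a, ha, rfl⟩))))
    (isPConstrained_iff.1 (isPConstrained_of_isPSolvable (Cfsg.Agent.L.isPSolvable_of_isSolvable q)))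
    (isSylowIn_map_mk' (sylow_isSylowIn_top hP.toSylow) (pPrimeCore q L))
  rw [← map_ZJ_of_coprime (.inr rfl) _ (by rw [QuotientGroup.ker_mk']; exact not_dvd_card_pPrimeCore)
    hP.toSylow.isPGroup', ← normalizer_sup_pPrimeCore_eq_top_iff
      (hP.toSylow.isPGroup'.to_le (ZJ_le _))] at h1
  have h3 := congrArg (map L.subtype) h1
  rw [← MonoidHom.range_eq_map, range_subtype, Subgroup.map_sup, ← core_compl_singleton_eq, sup_comm] at h3
  refine h3.ge.trans (sup_le_sup_left (le_inf (map_subtype_le _) ?_) _)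
  refine (le_normalizer_map _).trans ?_
  rw [map_ZJ _ _ L.subtype_injective, hP.map_toSylow]

end Cfsg.Agent.MP
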