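import Cfsg.Agent.MP.IQ

/-! Section E: permutability of the invariant Sylow subgroups (see notes/s1917_plan.md). -/

set_option autoImplicit false
set_option linter.unusedSectionVars false

namespace Cfsg.Agent.MP

open Subgroup Cfsg.Agent.FT Cfsg.Agent.SF Cfsg.Agent.H1
open scoped commutatorElement

universe u
variable {G : Type u} [Group G] [Finite G] {r p q : ℕ} [hr : Fact r.Prime] [hp' : Fact p.Prime]
  [hq : Fact q.Prime] {A H K L M N R T U V W X Y : Subgroup G} {a b c g x : G}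

theorem e_core (n : A ≤ 𝐍(K)) (hK : K ≤ H) : Pv p A H (core {p} K) :=
  ⟨(core_le _ _).trans hK, core_isPGroup K, le_normalizer_core _ n⟩

theorem e_cent (pq : p ≠ q) (hK : PQ p q A H K) (h0 : core {q} K = ⊥) (hU : U ≤ K)
    (pU : IsPGroup q U) (c : U ≤ 𝐂(core {p} K)) : U = ⊥ := by
  rw [eq_bot_iff, ← inf_eq_bot_of_coprime' (coprime_of_isPGroup_ne (core_isPGroup (p := p) K) pU pq)]
  exact le_inf ((le_inf hU c).trans (cent_pcore_le hK.sol (by rw [hK.core_eq pq, h0]))) le_rfl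

namespace Mn

variable (h : Mn r A H) (h2 : ♯A = r ^ 2)
include h h2

theorem e_not_le (pq : p ≠ q) (h3 : ¬ Perm p q A H) : ¬ sy q A H ≤ hp p q A H := fun k =>
  h3 ((h.toHy.hp_spec pq).1.pi.of_le (sup_le (h.toHy.hp_spec pq).2.1 k))

theorem e_or (pq : p ≠ q) (h3 : ¬ Perm p q A H) (sp : ¬ Small p A H) (sq : ¬ Small q A H)
    (hK : MX p q A H K) :
    (core {q} K = ⊥ ∧ sy p A H ≤ K) ∨ (core {p} K = ⊥ ∧ sy q A H ≤ K) := by
  by_cases k1 : core {q} K = ⊥
  · exact .inl ⟨k1, h.charp h2 pq hK k1⟩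
  by_cases k2 : core {p} K = ⊥
  · exact .inr ⟨k2, h.charp h2 pq.symm hK.symm k2⟩
  exact absurd (hK.pi.of_le (sup_le (by_contra fun k => sp (h.mixed h2 pq hK k2 k1 k))
    (by_contra fun k => sq (h.mixed h2 pq.symm hK.symm k1 k2 k)))) h3

theorem e_cen (pq : p ≠ q) (h3 : ¬ Perm p q A H) (sp : ¬ Small p A H) (sq : ¬ Small q A H)
    (ha : a ∈ A) (h1 : a ≠ 1) :
    sy q A H ⊓ 𝐂[a] ≤ hp p q A H ∨ sy p A H ⊓ 𝐂[a] ≤ hp q p A H := by
  have hh := h.toHy
  have n := hh.n_cent1 ha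
  obtain ⟨E, e1, -, e3⟩ := h.hl p q inf_le_left (h.cen_ne ha h1) (H2.le_normalizer_inf hh.nH n)
  obtain ⟨K, hK, e4⟩ := e1.exists_mx
  rcases h.e_or h2 pq h3 sp sq hK with k | k
  · exact .inl (((e3 _ (((hh.sy_pv q).inf n).pq p).symm (inf_le_inf_right _ (hh.sy_pv q).le)).trans
      e4).trans ((hh.hp_spec pq).2.2 K hK.toPQ k.2))
  · exact .inr (((e3 _ (((hh.sy_pv p).inf n).pq q) (inf_le_inf_right _ (hh.sy_pv p).le)).trans
      e4).trans ((hh.hp_spec pq.symm).2.2 K hK.toPQ.symm k.2))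

theorem e_nrm (pq : p ≠ q) (h3 : ¬ Perm p q A H) (sp : ¬ Small p A H) (sq : ¬ Small q A H) :
    core {q} (hp p q A H) = ⊥ ∧ hp p q A H ≤ 𝐍(⁅sy p A H, A⁆) := by
  have hh := h.toHy
  obtain ⟨hK, k1, -⟩ := hh.hp_spec pq
  have k2 := ((h.e_or h2 pq h3 sp sq hK).resolve_right fun k => h.e_not_le h2 pq h3 k.2).1
  have hl := hh.mono hK.le hK.inv
  have k3 := hl.nrm_fl (hl.s2 h2 pq hK.toPQ.sol hK.pi k2)
  rw [hh.sy_inf p hK.le hK.inv, inf_eq_right.2 k1] at k3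
  exact ⟨k2, k3⟩

theorem e_fl (pq : p ≠ q) (h3 : ¬ Perm p q A H) (sp : ¬ Small p A H) (sq : ¬ Small q A H) :
    sy q A H ⊓ hp p q A H ≤ 𝐂(A) := by
  have hh := h.toHy
  obtain ⟨hK, -, -⟩ := hh.hp_spec pq
  obtain ⟨hL, -, -⟩ := hh.hp_spec pq.symm
  obtain ⟨k1, k2⟩ := h.e_nrm h2 pq h3 sp sq
  obtain ⟨-, k3⟩ := h.e_nrm h2 pq.symm (fun k => h3 k.symm) sq sp
  have hP := hh.sy_pv p
  have hQ := hh.sy_pv q
  have hX := hQ.inf hK.inv
  have hY := hP.inf hL.inv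
  have hD : Pv p A H (core {p} (hp p q A H)) := e_core hK.inv hK.le
  have nD : sy q A H ⊓ hp p q A H ≤ 𝐍(core {p} (hp p q A H)) :=
    inf_le_right.trans (core_nrm _ _).norm
  have k4 : ⁅sy p A H ⊓ hp q p A H, A⁆ ≤ 𝐂(⁅sy q A H ⊓ hp p q A H, A⁆) := by
    rw [le_cent_iff_commutator, eq_bot_iff,
      ← inf_eq_bot_of_coprime' (coprime_of_isPGroup_ne hP.pg hQ.pg pq)]
    refine le_inf ?_ ?_
    · exact (commutator_mono (commutator_mono inf_le_left le_rfl)
        ((commutator_le_left' hX.inv).trans inf_le_right)).trans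
        ((commutator_le_left' k2).trans (commutator_le_left' hP.inv))
    · exact (commutator_mono ((commutator_le_left' hY.inv).trans inf_le_right)
        (commutator_mono inf_le_left le_rfl)).trans
        ((commutator_le_right' k3).trans (commutator_le_left' hQ.inv))
  have k5 : ∀ a ∈ A, a ≠ 1 → ⁅sy q A H ⊓ hp p q A H ⊓ 𝐂[a], A⁆ ≠ ⊥ → ∀ c ∈ A, c ∉ zpowers a →
      sy q A H ⊓ 𝐂[c] ≤ hp p q A H := fun a ha a1 k c hc ca => by
    have hU := hX.inf (hh.n_cent1 ha)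
    have hDc := hD.inf (hh.n_cent1 hc)
    refine (h.e_cen h2 pq h3 sp sq hc fun e => ca (e ▸ one_mem _)).resolve_right fun k6 => k ?_
    refine e_cent pq hK.toPQ k1 ((commutator_le_left' hU.inv).trans
      (inf_le_left.trans inf_le_right)) hU.fl.pg ?_
    refine hh.m2 h2 pq hD hU (inf_le_left.trans nD) ha a1 inf_le_right hc ca ?_
    rw [hh.dec le_rfl hDc.le hDc.inv]
    refine sup_le ?_ ?_
    · exact ((commutator_mono (le_inf (inf_le_left.trans hD.le_sy)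
        ((inf_le_inf_right _ hD.le_sy).trans k6)) le_rfl).trans k4).trans
        (cent_anti (commutator_mono inf_le_left le_rfl))
    · exact ((inf_le_inf_right _ inf_le_left).trans (hh.kk pq hD hX nD)).trans
        (cent_anti ((commutator_le_left' hU.inv).trans inf_le_left))
  rw [le_cent_iff_commutator, eq_bot_iff]
  refine hh.g1 h2 hX fun a ha a1 => ?_
  rw [le_bot_iff]
  by_contra k
  have k6 := k5 a ha a1 k
  obtain ⟨c, hc, ca, k7⟩ : ∃ c ∈ A, c ∉ zpowers a ∧ ⁅sy q A H ⊓ 𝐂[c], A⁆ ≠ ⊥ := by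
    by_contra! k7
    refine sq ⟨a, ha, a1, ?_⟩
    rw [← cent_zpowers, le_cent_iff_commutator, eq_bot_iff]
    exact hh.g2 h2 hQ ha fun c hc ca => (k7 c hc ca).le
  have k8 := k5 c hc (fun e => ca (e ▸ one_mem _)) (fun e => k7 (le_bot_iff.1
    ((commutator_mono (le_inf (le_inf inf_le_left (k6 c hc ca)) inf_le_right) le_rfl).trans e.le)))
  refine h.e_not_le h2 pq h3 (hh.g0 h2 hQ.le hQ.inv fun d hd d1 => ?_)
  by_cases da : d ∈ zpowers a
  · exact k8 d hd (hh.zp_symm h2 hd d1 hc fun e => ca (zpowers_le.2 da e))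
  · exact k6 d hd da

theorem e1 (pq : p ≠ q) (h3 : ¬ NL p A H) (h4 : ¬ Small q A H) : Perm p q A H := by
  have hh := h.toHy
  by_contra k
  have sp : ¬ Small p A H := fun s => h3 (hh.nl_of_small h2 s)
  have k1 := h.e_fl h2 pq k sp h4
  have k2 := h.e_fl h2 pq.symm (fun e => k e.symm) h4 sp
  obtain ⟨a, ha, a1, k3⟩ := hh.large h2 h3
  refine h4 ⟨a, ha, a1, ?_⟩
  rw [← cent_zpowers, le_cent_iff_commutator, eq_bot_iff]
  refine hh.g2 h2 (hh.sy_pv q) ha fun c hc ca => (le_cent_iff_commutator.1 ?_).le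
  exact (le_inf inf_le_left ((h.e_cen h2 pq k sp h4 hc fun e => ca (e ▸ one_mem _)).resolve_right
    fun e => k3 c hc ca ((le_inf inf_le_left e).trans k2))).trans k1

theorem e23 (pq : p ≠ q) (h3 : ¬ Perm p q A H) (hb : b ∈ A) (h1 : b ≠ 1) (h4 : sy q A H ≤ 𝐂[b]) :
    sy p A H ⊓ 𝐂[b] ≤ 𝐂(A) ∧
      (Small p A H ∨ ∀ X, PQ p q A H X → sy q A H ≤ X → X ⊓ sy p A H ≤ 𝐂(A)) := by
  have hh := h.toHy
  obtain ⟨hK, -, k0⟩ := hh.hp_spec pq.symm
  have k1 := h.e_not_le h2 pq.symm fun e => h3 e.symm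
  have hP := hh.sy_pv p
  have hQ := hh.sy_pv q
  have n := hh.n_cent1 hb
  by_cases k2 : core {p} (hp q p A H) = ⊥
  swap
  · have k3 := h.mixed h2 pq hK.symm k2 (fun e => k1 (h.charp h2 pq hK.symm e)) k1
    refine ⟨?_, .inl k3⟩
    obtain ⟨a, ha, a1, k4⟩ := k3
    by_cases ab : a ∈ zpowers b
    · exact absurd (h.perm_of_le inf_le_left (h.cen_ne ha a1)
        (H2.le_normalizer_inf hh.nH (hh.n_cent1 ha)) (le_inf hP.le k4)
        (le_inf hQ.le (h4.trans (cent1_le_cent1_of_mem ab)))) h3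
    · rw [← hh.cen_cen h2 hb h1 ha ab]
      exact le_inf inf_le_right (inf_le_left.trans k4)
  have hD : Pv q A H (core {q} (hp q p A H)) := e_core hK.inv hK.le
  have hY := hP.inf hK.inv
  have nD : sy p A H ⊓ hp q p A H ≤ 𝐍(core {q} (hp q p A H)) :=
    inf_le_right.trans (core_nrm _ _).norm
  have k3 : core {q} (hp q p A H) ≤ 𝐂[b] := hD.le_sy.trans h4
  have nb := (zpowers_le.2 hb).trans hY.inv
  have k4 : sy p A H ⊓ hp q p A H ≤ 𝐂[b] := by
    rw [← cent_zpowers, le_cent_iff_commutator]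
    refine e_cent pq.symm hK.toPQ k2 ((commutator_le_left' nb).trans inf_le_right)
      (isPGroup_of_le (commutator_le_left' nb) hY.pg) ?_
    rw [← cent_zpowers, le_cent_iff_commutator'] at k3
    rw [le_cent_iff_commutator]
    refine commutator_commutator_eq_bot_of_rotate (by rw [k3, commutator_bot_left]) ?_
    rw [eq_bot_iff, ← k3, commutator_comm (zpowers b)]
    exact commutator_mono (commutator_le_left' nD) le_rfl
  have k5 : sy p A H ⊓ hp q p A H ≤ 𝐂(A) := by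
    rw [le_cent_iff_commutator]
    refine e_cent pq.symm hK.toPQ k2 ((commutator_le_left' hY.inv).trans inf_le_right) hY.fl.pg ?_
    have := hh.m1 h2 pq.symm hD hY nD hb h1 k4
    rwa [inf_eq_left.2 k3] at this
  have k6 : ∀ X, PQ p q A H X → sy q A H ≤ X → X ⊓ sy p A H ≤ 𝐂(A) := fun X hX e =>
    (le_inf inf_le_right (inf_le_left.trans (k0 X hX.symm e))).trans k5
  obtain ⟨E, e1, -, e3⟩ := h.hl p q inf_le_left (h.cen_ne hb h1) (H2.le_normalizer_inf hh.nH n)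
  exact ⟨(le_inf (e3 _ ((hP.inf n).pq q) (inf_le_inf_right _ hP.le)) inf_le_left).trans
    (k6 E e1 (e3 _ (hQ.pq p).symm (le_inf hQ.le h4))), .inr k6⟩

end Mn

end Cfsg.Agent.MP
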