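import Cfsg.Agent.MP.IB
import Cfsg.Agent.FA.P8
import Cfsg.Agent.H3.BaerSuzuki

/-! Section N: there is a large prime (see notes/s1917_plan.md). -/

set_option autoImplicit false
set_option linter.unusedSectionVars false

namespace Cfsg.Agent.MP

open Subgroup Cfsg.Agent.FT Cfsg.Agent.SF Cfsg.Agent.H1
open scoped commutatorElement

universe u
variable {G : Type u} [Group G] [Finite G] {r p q : ℕ} [hr : Fact r.Prime] [hp' : Fact p.Prime]
  [hq : Fact q.Prime] {A H K L M N R T U V W X Y : Subgroup G} {a b c g x : G}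

theorem n_fl (h : Hy r A H) (nl : NL p A H) (hL : L ≤ H) (n : A ≤ 𝐍(L))
    (hs : Group.IsSolvable L) (s : ℕ) [hs' : Fact s.Prime] (sp : s ≠ p) :
    ⁅sy s A L, A⁆ ≤ core {p}ᶜ L := by
  have hl := h.mono hL n
  have v : Pv p A L (sy p A L ⊓ core2 {p}ᶜ {p} L) :=
    (hl.sy_pv p).inf (le_normalizer_core2 _ _ n)
  exact hl.l1 sp hs (nl s hs'.out sp _ _ (v.mono hL)
    (((hl.sy_pv s).inf (H2.le_normalizer_normalizer v.inv)).mono hL) inf_le_right)

theorem Mn.n_sol (h : Mn r A H) (hX : Pv p A H X) (h0 : X ≠ ⊥) :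
    Group.IsSolvable (H ⊓ 𝐍(X) : Subgroup G) := by
  refine h.sol _ inf_le_left (fun e => ?_)
    (H2.le_normalizer_inf h.nH (H2.le_normalizer_normalizer hX.inv))
  rcases h.simp X ⟨hX.le, inf_eq_left.1 e⟩ hX.inv with e1 | e1
  · exact h0 e1
  · have := isNilpotent_of_isPGroup hX.pg
    rw [e1] at this
    exact h.nsol inferInstance

theorem n_noinv (h : Hy r A H) (p2 : p ≠ 2) (nl : NL p A H) (hL : L ≤ H) (n : A ≤ 𝐍(L))
    (hs : Group.IsSolvable L) {t y : G} (ht : t ∈ L) (hy : y ∈ L) (py : IsPGroup p (zpowers y))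
    (e : t * y * t⁻¹ = y⁻¹) : y = 1 := by
  have hl := h.mono hL n
  have hO := core_nrm {p}ᶜ L
  have h2 : sy 2 A L ≤ core {p}ᶜ L := by
    have := hl.dec le_rfl (hl.sy_pv 2).le (hl.sy_pv 2).inv
    rw [hl.two (hl.sy_pv 2), sup_bot_eq] at this
    exact this.le.trans (n_fl h nl hL n hs 2 p2.symm)
  have h3 : Odd ♯(bar (core {p}ᶜ L) L) := by
    rw [← Nat.not_even_iff_odd, even_iff_two_dvd, card_bar hO.norm]
    exact fun hd => (hl.sy_syl 2).not_dvd (hd.trans (relIndex_dvd_of_le_left _ h2))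
  obtain ⟨j, hj⟩ := h3
  have h4 : t ^ (2 * j + 1) ∈ core {p}ᶜ L := by
    rw [← coset_eq_one_iff (pow_mem (hO.norm ht) _), coset_pow (hO.norm ht), ← hj]
    exact congrArg Subtype.val (pow_card_eq_one' (G := bar (core {p}ᶜ L) L)
      (x := ⟨_, coset_mem_bar _ ht⟩))
  have h5 : t ^ 2 ∈ 𝐂[y] := by
    rw [mem_cent1_iff, ← mul_inv_eq_iff_eq_mul]
    calc t ^ 2 * y * (t ^ 2)⁻¹ = t * (t * y * t⁻¹) * t⁻¹ := by rw [sq]; group
      _ = t * y⁻¹ * t⁻¹ := by rw [e]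
      _ = (t * y * t⁻¹)⁻¹ := by group
      _ = y := by rw [e, inv_inv]
  have h6 : t ^ (2 * j + 1) * y * (t ^ (2 * j + 1))⁻¹ = y⁻¹ := by
    rw [pow_succ', pow_mul, mul_assoc t, mem_cent1_iff.1 (pow_mem h5 j), ← e]; group
  generalize t ^ (2 * j + 1) = o at h4 h6
  have h7 : y ^ 2 ∈ core {p}ᶜ L := by
    have := mul_mem (conj_mem_of_mem_normalizer (hO.norm hy) h4) (inv_mem h4)
    rwa [show y * o * y⁻¹ * o⁻¹ = y * (o * y * o⁻¹)⁻¹ by group, h6, inv_inv, ← sq] at this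
  have h8 : y ^ 2 = 1 := mem_bot.1 ((PiG.inf_eq_bot (π := {p}) (piG_of_isPGroup py rfl)
    (core_piG _ _)).le ⟨pow_mem (mem_zpowers y) 2, h7⟩)
  obtain ⟨k, hk⟩ := py ⟨y, mem_zpowers y⟩
  exact orderOf_eq_one_iff.1 (Nat.eq_one_of_dvd_coprimes
    (((Nat.coprime_primes hp'.out Nat.prime_two).2 p2).pow_left k)
    (orderOf_dvd_of_pow_eq_one (congrArg Subtype.val hk)) (orderOf_dvd_of_pow_eq_one h8))

theorem Mn.n_noinv (h : Mn r A H) (p2 : p ≠ 2) (nl : NL p A H) {t y : G} (ht : t ∈ H)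
    (hy : y ∈ sy p A H) (e : t * y * t⁻¹ = y⁻¹) : y = 1 := by
  by_contra y1
  have hh := h.toHy
  have hS := hh.sy_syl p
  have pS := hh.sy_pv p
  have cS := hh.cen_norm_sy p
  have iS := fun L => hh.sy_inf p (L := L)
  have s0 : sy p A H ≠ ⊥ := fun e => y1 (mem_bot.1 (e ▸ hy))
  have aJ : ∀ Z ≤ JJ p (sy p A H), Z ≠ ⊥ → 𝐍(sy p A H) ≤ 𝐍(Z) →
      H ⊓ 𝐍(JJ p (sy p A H)) ≤ 𝐍(Z) := fun Z j1 z5 z2 => by
    have pJ : Pv p A H (JJ p (sy p A H)) :=
      pS.of_le (JJ_le _) (pS.inv.trans (normalizer_le_normalizer_JJ _))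
    have nL := H2.le_normalizer_inf h.nH (H2.le_normalizer_normalizer pJ.inv)
    have sL := h.n_sol pJ (ne_bot_of_le j1 z5)
    have hl := hh.mono inf_le_left nL
    refine hh.le_of_sy inf_le_left nL fun s hs => ?_
    by_cases sp : s = p
    · subst sp
      exact inf_le_right.trans (le_normalizer.trans z2)
    have := Fact.mk hs
    rw [← hh.sy_inf s inf_le_left nL]
    refine (hl.dec le_rfl (hl.sy_pv s).le (hl.sy_pv s).inv).le.trans (sup_le ?_ ?_)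
    · refine (n_fl hh nl inf_le_left nL sL s sp).trans ((le_cent_of_inf_eq_bot
        ((core_le _ _).trans inf_le_right) ((le_inf pJ.le le_normalizer).trans (core_nrm _ _).norm)
        (PiG.inf_eq_bot' (π := {p}) (core_piG _ _) (piG_of_isPGroup pJ.pg rfl))).trans
        ((cent_anti j1).trans (cent_le_norm Z)))
    · exact (inf_le_inf_right _ ((hl.sy_pv s).le.trans inf_le_left)).trans (cS.trans z2)
  generalize sy p A H = S at *
  have z1 := abelem_om_ctr p S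
  have z2 : 𝐍(S) ≤ 𝐍(om p 𝐙(S)) := le_normalizer_om p (le_normalizer_ctr le_rfl)
  have z3 : om p 𝐙(S) ≤ S := (om_le _ _).trans inf_le_left
  have z4 : S ≤ 𝐂(om p 𝐙(S)) := cent_symm ((om_le _ _).trans inf_le_right)
  have z5 : om p 𝐙(S) ≠ ⊥ := om_ne_bot_of_isPGroup (isPGroup_of_le inf_le_left hS.isPGroup)
    (ctr_ne_bot (isNilpotent_of_isPGroup hS.isPGroup) s0)
  generalize om p 𝐙(S) = Z at *
  have sM : S ≤ H ⊓ 𝐍(Z) := le_inf hS.le (le_normalizer.trans z2)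
  have hM := hS.of_le sM inf_le_left
  have pZ : Pv p A H Z := pS.of_le z3 (pS.inv.trans z2)
  have ni : ∀ t ∈ H ⊓ 𝐍(Z), ∀ y ∈ S, t * y * t⁻¹ = y⁻¹ → y = 1 := fun t ht y hy e =>
    MP.n_noinv hh p2 nl inf_le_left (H2.le_normalizer_inf h.nH (H2.le_normalizer_normalizer pZ.inv))
      (h.n_sol pZ z5) ht (sM hy) (isPGroup_of_le ((zpowers_le (G := G)).2 hy) hS.isPGroup) e
  have key : ∀ U, Z ≤ U → U ≤ S → H ⊓ 𝐍(U) ≤ 𝐍(Z) := by
    by_contra! k
    obtain ⟨U, ⟨u1, u2, u3⟩, mx⟩ := Set.exists_max_image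
      {U : Subgroup G | Z ≤ U ∧ U ≤ S ∧ ¬ H ⊓ 𝐍(U) ≤ 𝐍(Z)} (fun U => ♯(S ⊓ 𝐍(U) : Subgroup G))
      (Set.toFinite _) k
    have t1 : U ≤ S ⊓ 𝐍(U) := le_inf u2 le_normalizer
    have t2 : S ⊓ 𝐍(U) ≤ S := inf_le_left
    have t3 : S ⊓ 𝐍(U) ≤ H ⊓ 𝐍(U) := inf_le_inf_right _ hS.le
    generalize S ⊓ 𝐍(U) = T at *
    have j1 : Z ≤ JJ p T := let ⟨A, hA⟩ := exists_mem_maxAb p T
      (le_of_mem_maxAb hA (u1.trans t1) z1 (cent_symm ((hA.1.trans t2).trans z4))).trans (le_JJ hA)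
    have j2 := (JJ_le (n := p) T).trans t2
    have nJ : H ⊓ 𝐍(JJ p T) ≤ 𝐍(Z) := by
      rcases t2.lt_or_eq with t4 | rfl
      · by_contra k1
        exact (mx _ ⟨j1, j2, k1⟩).not_gt (H1.card_lt_of_lt ((lt_inf_normalizer_of_isPGroup
          hS.isPGroup t4).trans_le (inf_le_inf_left _ (normalizer_le_normalizer_JJ T))))
      exact aJ Z j1 z5 z2
    have hT : Syl p T (H ⊓ 𝐍(U)) := Syl.of_normalizer (isSylowIn_of_maximal
      (isPGroup_of_le t2 hS.isPGroup) (le_inf t3 le_normalizer) fun Q q1 q2 q3 => by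
      have q4 := q3.trans (inf_le_left.trans inf_le_left)
      obtain ⟨m, hm, e⟩ := hM.exists_cj_le q1 (le_inf q4 ((le_inf q4 (q3.trans (inf_le_right.trans
        (normalizer_le_normalizer_JJ T)))).trans nJ))
      have eZ := cj_eq_iff_mem_normalizer.2 hm.2
      refine (eq_of_le_of_card_le q2 ((card_cj m Q).ge.trans ((card_le_of_le' (le_inf e
        (FA.cj_le_norm (q3.trans (inf_le_left.trans inf_le_right)) m))).trans (mx _ ⟨eZ.ge.trans
          (cj_mono m u1), (cj_mono m (t1.trans q2)).trans e, fun k1 => u3 ?_⟩)))).symm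
      rwa [← eZ, ← cj_normalizer, ← cj_normalizer, ← cj_eq_of_mem hm.1, ← cj_inf,
        cj_le_cj_iff] at k1)
    obtain ⟨t, i1, i2, i3, i4⟩ := (FA.inv_of_loc p2 hT ⟨t1.trans t3, inf_le_right⟩
      (isPGroup_of_le u2 hS.isPGroup) u1 z1 (t2.trans z4)
      ((inf_le_inf_right _ inf_le_left).trans nJ) u3).mono inf_le_left
    have i5 : FA.Iv Z t = ⊥ := eq_bot_iff.2 fun z hz => mem_bot.2 (ni t i1 z (z3 hz.1.1) hz.2)
    rw [i5, card_bot] at i3
    exact card_ne_zero H (by simpa using i3)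
  obtain ⟨m, hm, e1⟩ := hS.fusion_of_cr (M := H ⊓ 𝐍(Z))
    (fun D hD n hn => ⟨n, mem_inf.2 ⟨hn.1, key D ((le_inf z3 (cent_symm (hD.le.trans z4))).trans
      (hD.centralizer_le hS.le)) hD.le hn⟩, fun _ _ => rfl⟩) ((zpowers_le (G := G)).2 hy) ht
    (by rw [cj_zpowers, e]; exact (zpowers_le (G := G)).2 (inv_mem hy))
  exact y1 (ni m hm y hy ((e1 y (mem_zpowers y)).trans e))

theorem Mn.exists_large (h : Mn r A H) : ∃ p : ℕ, p.Prime ∧ ¬ NL p A H := by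
  by_contra! nl
  obtain ⟨t, ht⟩ := exists_prime_orderOf_dvd_card' (G := H) 2 h.even
  obtain ⟨x, x1, x2, x3⟩ := H3.exists_inverted_odd ht fun N hN pN htN => by
    have h1 : N.map H.subtype ≤ core {2} H := le_pcore ⟨map_subtype_le _, fun g hg =>
      mem_normalizer_of_conj_mem (by
        rintro _ ⟨z, hz, rfl⟩
        exact ⟨_, hN.conj_mem z hz ⟨g, hg⟩, rfl⟩)⟩ (pN.map _)
    rcases h.simp _ (core_nrm {2} H) (le_normalizer_core _ h.nH) with e | e
    · have := mem_bot.1 (e ▸ h1 ⟨t, htN, rfl⟩)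
      rw [show t = 1 from Subtype.ext this, orderOf_one] at ht
      omega
    · have := isNilpotent_of_isPGroup (core_isPGroup (p := 2) H)
      rw [e] at this
      exact h.nsol inferInstance
  obtain ⟨p, pp, hd⟩ := Nat.exists_prime_and_dvd (mt orderOf_eq_one_iff.1 x1)
  have := Fact.mk pp
  have p2 : p ≠ 2 := by
    rintro rfl
    exact x2.not_two_dvd_nat hd
  have oy := orderOf_pow_orderOf_div (orderOf_pos x).ne' hd
  have ey : t * x ^ (orderOf x / p) * t⁻¹ = (x ^ (orderOf x / p))⁻¹ := by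
    rw [← conj_pow, x3, inv_pow]
  generalize x ^ (orderOf x / p) = y at oy ey
  have py : IsPGroup p (zpowers (y : G)) :=
    IsPGroup.iff_card.2 ⟨1, by rw [Nat.card_zpowers, orderOf_coe, oy, pow_one]⟩
  obtain ⟨g, hg, e⟩ := (h.toHy.sy_syl p).exists_cj_le py ((zpowers_le (G := G)).2 y.2)
  have ey' : (t : G) * y * (t : G)⁻¹ = (y : G)⁻¹ := congrArg Subtype.val ey
  have := h.n_noinv p2 (nl p pp) (t := g * t * g⁻¹) (y := g * y * g⁻¹)
    (mul_mem (mul_mem hg t.2) (inv_mem hg)) (e (conj_mem_cj (mem_zpowers _))) (by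
      calc g * t * g⁻¹ * (g * y * g⁻¹) * (g * t * g⁻¹)⁻¹ = g * (t * y * (t : G)⁻¹) * g⁻¹ := by group
        _ = _ := by rw [ey']; group)
  have y1 : y = 1 := Subtype.ext (by simpa using this)
  rw [y1, orderOf_one] at oy
  exact pp.one_lt.ne oy

end Cfsg.Agent.MP
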