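import Cfsg.Agent.MP.IC
import Cfsg.Agent.H9.Burnside

/-! Section P: maximal invariant two-prime subgroups (see notes/s1917_plan.md). -/

set_option autoImplicit false
set_option linter.unusedSectionVars false

namespace Cfsg.Agent.MP

open Subgroup Cfsg.Agent.FT Cfsg.Agent.SF Cfsg.Agent.H1
open scoped commutatorElement

universe u
variable {G : Type u} [Group G] [Finite G] {r p q : ℕ} [hr : Fact r.Prime] [hp' : Fact p.Prime]
  [hq : Fact q.Prime] {A H K L M N R T U V W X Y : Subgroup G} {a b c g x : G}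

theorem Pv.pq (h : Pv p A H V) (q : ℕ) : PQ p q A H V :=
  ⟨h.le, piG_of_isPGroup h.pg (.inl rfl), h.inv⟩
theorem PQ.sol (h : PQ p q A H X) : Group.IsSolvable X := by
  obtain ⟨m, n, e, h1, h2⟩ := exists_piNum_mul {p} (card_ne_zero X)
  have h0 := card_ne_zero X
  rw [e, mul_ne_zero_iff] at h0
  obtain ⟨i, hi⟩ := (piNum_singleton_iff hp'.out h0.1).1 h1
  obtain ⟨j, hj⟩ := (piNum_singleton_iff hq.out h0.2).1 fun s hs hd =>
    (h.pi s hs (e ▸ hd.mul_left m)).resolve_left (h2 s hs hd)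
  exact H9.burnside_pq (a := i) (b := j) hp'.out hq.out (by rw [e, hi, hj])
theorem PQ.exists_mx (h : PQ p q A H X) : ∃ K, MX p q A H K ∧ X ≤ K := by
  obtain ⟨K, h1, h2⟩ := (Set.toFinite {Y | PQ p q A H Y}).exists_le_maximal h
  exact ⟨K, ⟨h2.prop, fun Y hY k => h2.le_of_ge hY k⟩, h1⟩
theorem PQ.core_eq (h : PQ p q A H X) (pq : p ≠ q) : core {p}ᶜ X = core {q} X :=
  core_congr fun s hs hd => by
    rcases h.pi s hs hd with rfl | rfl
    · simp [pq]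
    · simp [pq.symm]
theorem PQ.inf (h : PQ p q A H X) (n : A ≤ 𝐍(Y)) : PQ p q A H (X ⊓ Y) :=
  ⟨inf_le_left.trans h.le, h.pi.of_le inf_le_left, H2.le_normalizer_inf h.inv n⟩
theorem PQ.core_pv (h : PQ p q A H X) (s : ℕ) [Fact s.Prime] : Pv s A H (core {s} X) :=
  ⟨(core_le _ _).trans h.le, core_isPGroup X, le_normalizer_core _ h.inv⟩
theorem Hy.pq_eq (h : Hy r A H) (hX : PQ p q A H X) : X = (X ⊓ sy p A H) ⊔ (X ⊓ sy q A H) := by
  refine le_antisymm (h.le_of_sy hX.le hX.inv fun s hs => ?_) (sup_le inf_le_left inf_le_left)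
  haveI := Fact.mk hs
  by_cases h0 : X ⊓ sy s A H = ⊥
  · rw [h0]; exact bot_le
  rcases mem_of_piG_of_isPGroup (hX.pi.of_le inf_le_left)
    (isPGroup_of_le inf_le_right (h.sy_pv s).pg) h0 with rfl | rfl
  · exact le_sup_left
  · exact le_sup_right
theorem Hy.pq_prod (h : Hy r A H) (pq : p ≠ q) (hX : PQ p q A H X) :
    IsProd X (X ⊓ sy p A H) (X ⊓ sy q A H) := by
  have hP := (h.syl_inf p hX.le hX.inv).hall
  have h1 : Hall {p}ᶜ (X ⊓ sy q A H) X := (h.syl_inf q hX.le hX.inv).hall.congr fun s hs hd => by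
    rcases hX.pi s hs hd with rfl | rfl
    · simp [pq]
    · simp [pq.symm]
  rw [isProd_iff_card hP.le h1.le, hP.piG.inf_eq_bot h1.piG, card_bot, mul_one, hP.card_mul h1]
theorem Hy.hp_spec (h : Hy r A H) (pq : p ≠ q) : MX p q A H (hp p q A H) ∧ sy p A H ≤ hp p q A H ∧
    ∀ X, PQ p q A H X → sy p A H ≤ X → X ≤ hp p q A H := by
  have hle : ∀ X, PQ p q A H X → sy p A H ≤ X → X ≤ hp p q A H := fun L h1 h2 => le_sSup ⟨h1, h2⟩
  have hSX := hle _ ((h.sy_pv p).pq q) le_rfl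
  have hA : A ≤ 𝐍(hp p q A H) := fun d hd =>
    mem_normalizer_of_cj_le (cj_le_iff_le_cj_inv.2 (sSup_le fun Y hY => cj_le_iff_le_cj_inv.1 (by
      rw [cj_eq_iff_mem_normalizer.2 (hY.1.inv hd)]; exact le_sSup hY)))
  have hX : IsProd (hp p q A H) (sy p A H) (hp p q A H ⊓ sy q A H) := fun g hg => by
    have key : ∀ s ∈ sy p A H, ∀ t ∈ hp p q A H ⊓ sy q A H, ∃ s' ∈ sy p A H,
        ∃ t' ∈ hp p q A H ⊓ sy q A H, g * (s * t) = s' * t' := by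
      have hg' : g ∈ ⨆ L : {X | PQ p q A H X ∧ sy p A H ≤ X}, (L : Subgroup G) := by
        rwa [← sSup_eq_iSup']
      refine iSup_induction _ (C := fun g => ∀ s ∈ sy p A H, ∀ t ∈ hp p q A H ⊓ sy q A H,
        ∃ s' ∈ sy p A H, ∃ t' ∈ hp p q A H ⊓ sy q A H, g * (s * t) = s' * t') hg'
        (fun L x hx s hs t ht => ?_)
        (fun s hs t ht => ⟨s, hs, t, ht, one_mul _⟩) fun x y hx hy s hs t ht => ?_
      · obtain ⟨s', hs', t', ht', e⟩ := h.pq_prod pq L.2.1 (x * s) (mul_mem hx (L.2.2 hs))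
        exact ⟨s', hs'.2, t' * t, mul_mem ⟨hle L L.2.1 L.2.2 ht'.1, ht'.2⟩ ht, by
          rw [← mul_assoc, e, mul_assoc]⟩
      · obtain ⟨s', hs', t', ht', e⟩ := hy s hs t ht
        rw [mul_assoc, e]
        exact hx s' hs' t' ht'
    simpa only [mul_one] using key 1 (one_mem _) 1 (one_mem _)
  have hd : ♯(hp p q A H) ∣ ♯(sy p A H) * ♯(sy q A H) :=
    (Dvd.intro _ ((isProd_iff_card hSX inf_le_left).1 hX)).trans
      (Nat.mul_dvd_mul_left _ (card_dvd_of_le' inf_le_right))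
  refine ⟨⟨⟨sSup_le fun Y hY => hY.1.le, ?_, hA⟩, fun Y hY k => hle Y hY (hSX.trans k)⟩, hSX, hle⟩
  exact (piNum_mul_iff.2 ⟨((h.sy_pv p).pq q).pi, ((h.sy_pv q).pq p).symm.pi⟩).of_dvd hd

namespace Mn

variable (h : Mn r A H)
include h

theorem norm_ne (hU : Pv p A H U) (h0 : U ≠ ⊥) : H ⊓ 𝐍(U) ≠ H := fun e => by
  rcases h.simp U ⟨hU.le, inf_eq_left.1 e⟩ hU.inv with k | k
  · exact h0 k
  · exact h.nsol (k ▸ isSolvable_of_isPGroup hU.pg)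
theorem cen_ne (ha : a ∈ A) (h1 : a ≠ 1) : H ⊓ 𝐂[a] ≠ H := fun e =>
  h1 (h.faith a ha (le_cent1_iff.1 (inf_eq_left.1 e)))
/-- the invariant Hall subgroup of a proper invariant subgroup -/
theorem hl (p q : ℕ) [Fact p.Prime] [Fact q.Prime] (hL : L ≤ H) (h1 : L ≠ H) (n : A ≤ 𝐍(L)) :
    ∃ E, PQ p q A H E ∧ E ≤ L ∧ ∀ X, PQ p q A H X → X ≤ L → X ≤ E := by
  obtain ⟨E, hE, nE⟩ := exists_invariant_hall {p, q} n (h.cp le_rfl hL) (h.sol L hL h1 n)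
  have k : ∀ (s : ℕ) [Fact s.Prime], s ∈ ({p, q} : Set ℕ) → L ⊓ sy s A H ≤ E := fun s _ hs => by
    have h2 := (h.syl_inf s (hE.le.trans hL) nE).trans_hall hE hs
    rw [h2.eq_of_le (isPGroup_of_le inf_le_right (h.sy_pv s).pg) (inf_le_inf_right _ hE.le)
      inf_le_left]
    exact inf_le_left
  refine ⟨E, ⟨hE.le.trans hL, hE.piG, nE⟩, hE.le, fun X hX hXL => ?_⟩
  rw [h.pq_eq hX]
  exact sup_le ((inf_le_inf_right _ hXL).trans (k p (.inl rfl)))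
    ((inf_le_inf_right _ hXL).trans (k q (.inr rfl)))
/-- the same for the normaliser of an invariant `s`-subgroup -/
theorem hn (p q : ℕ) [Fact p.Prime] [Fact q.Prime] {s : ℕ} [Fact s.Prime] (hU : Pv s A H U)
    (h0 : U ≠ ⊥) : ∃ E, PQ p q A H E ∧ E ≤ 𝐍(U) ∧ ∀ X, PQ p q A H X → X ≤ 𝐍(U) → X ≤ E := by
  obtain ⟨E, h1, h2, h3⟩ := h.hl p q inf_le_left (h.norm_ne hU h0)
    (H2.le_normalizer_inf h.nH (H2.le_normalizer_normalizer hU.inv))
  exact ⟨E, h1, h2.trans inf_le_right, fun X hX k => h3 X hX (le_inf hX.le k)⟩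
theorem le_mx {s : ℕ} [Fact s.Prime] (hK : MX p q A H K) (hU : Pv s A H U) (h0 : U ≠ ⊥)
    (n : K ≤ 𝐍(U)) (hX : PQ p q A H X) (n' : X ≤ 𝐍(U)) : X ≤ K := by
  obtain ⟨E, h1, -, h3⟩ := h.hn p q hU h0
  exact (h3 X hX n').trans (hK.max E h1 (h3 K hK.toPQ n))
theorem perm_of_le (hL : L ≤ H) (h1 : L ≠ H) (n : A ≤ 𝐍(L)) (h2 : sy p A H ≤ L)
    (h3 : sy q A H ≤ L) : Perm p q A H := by
  obtain ⟨E, k1, -, k3⟩ := h.hl p q hL h1 n
  exact k1.pi.of_le (sup_le (k3 _ ((h.sy_pv p).pq q) h2) (k3 _ ((h.sy_pv q).pq p).symm h3))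
omit h in
theorem p_half (pq : p ≠ q) (hM : PQ p q A H M) (n : A ≤ 𝐍(U))
    (hU : U ≤ core {p} K) (hUM : U ≤ M) (hV : V ≤ core {q} K) (hVM : V ≤ M)
    (h1 : ∀ X, PQ p q A H X → X ≤ 𝐂(U) → X ≤ K) : V ≤ core {q} M := by
  have k1 := hM.inf (H2.le_normalizer_centralizer n)
  have k2 : V ≤ 𝐂(U) := hV.trans ((core_le_cent_core (by simpa using pq.symm) K).trans
    (cent_anti hU))
  rw [← hM.core_eq pq]
  refine le_trans ?_ (p'core_cent_pgroup (isPGroup_of_le hU (core_isPGroup K)) hUM hM.sol)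
  rw [k1.core_eq pq]
  exact (le_inf hV (le_inf hVM k2)).trans (core_inf_le (h1 _ k1 inf_le_right))
omit h in
theorem p_step (pq : p ≠ q) (hM : PQ p q A H M) (n : A ≤ 𝐍(U)) (n' : A ≤ 𝐍(V))
    (hU : U ≤ core {p} K) (hUM : U ≤ M) (hV : V ≤ core {q} K) (hVM : V ≤ M)
    (h1 : ∀ X, PQ p q A H X → X ≤ 𝐂(U) → X ≤ K) (h2 : ∀ X, PQ p q A H X → X ≤ 𝐂(V) → X ≤ K) :
    U ≤ core {p} M ∧ V ≤ core {q} M ∧ core {p} M ≤ K ∧ core {q} M ≤ K := by
  have k1 := p_half pq hM n hU hUM hV hVM h1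
  have k2 := p_half pq.symm hM.symm n' hV hVM hU hUM fun X hX => h2 X hX.symm
  exact ⟨k2, k1, h2 _ ((hM.core_pv p).pq q)
    ((core_le_cent_core (by simpa using pq) M).trans (cent_anti k1)),
    h1 _ ((hM.core_pv q).pq p).symm
    ((core_le_cent_core (by simpa using pq.symm) M).trans (cent_anti k2))⟩
theorem p_core {s : ℕ} [Fact s.Prime] (hK : MX p q A H K) (h0 : core {s} K ≠ ⊥) (X : Subgroup G)
    (hX : PQ p q A H X) (k : X ≤ 𝐂(core {s} K)) : X ≤ K :=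
  h.le_mx hK (hK.core_pv s) h0 (core_nrm _ _).norm hX (k.trans (cent_le_norm _))
theorem p_uniq (pq : p ≠ q) (hK : MX p q A H K) (hM : MX p q A H M) (n : A ≤ 𝐍(U))
    (n' : A ≤ 𝐍(V)) (u0 : U ≠ ⊥) (v0 : V ≠ ⊥)
    (hU : U ≤ core {p} K) (hUM : U ≤ M) (hV : V ≤ core {q} K) (hVM : V ≤ M)
    (h1 : ∀ X, PQ p q A H X → X ≤ 𝐂(U) → X ≤ K) (h2 : ∀ X, PQ p q A H X → X ≤ 𝐂(V) → X ≤ K) :
    M ≤ K := by
  obtain ⟨a1, a2, a3, a4⟩ := p_step pq hM.toPQ n n' hU hUM hV hVM h1 h2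
  obtain ⟨b1, -, b3, b4⟩ := p_step pq hK.toPQ (hM.core_pv p).inv (hM.core_pv q).inv le_rfl a3
    le_rfl a4 (h.p_core hM (ne_bot_of_le a1 u0)) (h.p_core hM (ne_bot_of_le a2 v0))
  obtain ⟨c1, -⟩ := p_step pq hM.toPQ (hK.core_pv p).inv (hK.core_pv q).inv le_rfl b3
    le_rfl b4 (h.p_core hK (ne_bot_of_le hU u0)) (h.p_core hK (ne_bot_of_le hV v0))
  exact h.le_mx hK (hK.core_pv p) (ne_bot_of_le hU u0) (core_nrm _ _).norm hM.toPQ
    (le_antisymm b1 c1 ▸ (core_nrm {p} M).norm)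
theorem p_one (pq : p ≠ q) (hK : MX p q A H K) (n : A ≤ 𝐍(U)) (u0 : U ≠ ⊥) (hU : U ≤ core {p} K)
    (v0 : core {q} K ≠ ⊥) (X : Subgroup G) (hX : PQ p q A H X) (k : X ≤ 𝐂(U)) : X ≤ K := by
  have hD := hK.core_pv p
  have hZ : Pv p A H 𝐙(core {p} K) := hD.inf (H2.le_normalizer_centralizer hD.inv)
  have z0 := ctr_ne_bot (isNilpotent_of_isPGroup hD.pg) (ne_bot_of_le hU u0)
  obtain ⟨E, h1, -, h3⟩ := h.hn p q (hD.of_le hU n) u0
  obtain ⟨M, hM, hEM⟩ := h1.exists_mx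
  refine (h3 X hX (k.trans (cent_le_norm _))).trans (hEM.trans (h.p_uniq pq hK hM hZ.inv
    (hK.core_pv q).inv z0 v0 inf_le_left ?_ le_rfl ?_ (fun Y hY k' => ?_) (h.p_core hK v0)))
  · exact (h3 _ (hZ.pq q) (inf_le_right.trans ((cent_anti hU).trans (cent_le_norm _)))).trans hEM
  · exact (h3 _ ((hK.core_pv q).pq p).symm ((core_le_cent_core (by simpa using pq.symm) K).trans
      ((cent_anti hU).trans (cent_le_norm _)))).trans hEM
  · exact h.le_mx hK hZ z0 (le_normalizer_ctr (core_nrm _ _).norm) hY (k'.trans (cent_le_norm _))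
/-- (BL) -/
theorem bl (pq : p ≠ q) (hK : MX p q A H K) (hX : PQ p q A H X) (h1 : X ⊓ core {p} K ≠ ⊥)
    (h2 : X ⊓ core {q} K ≠ ⊥) : X ≤ K := by
  obtain ⟨M, hM, hXM⟩ := hX.exists_mx
  have n1 := H2.le_normalizer_inf hX.inv (hK.core_pv p).inv
  have n2 := H2.le_normalizer_inf hX.inv (hK.core_pv q).inv
  exact hXM.trans (h.p_uniq pq hK hM n1 n2 h1 h2 inf_le_right (inf_le_left.trans hXM) inf_le_right
    (inf_le_left.trans hXM) (h.p_one pq hK n1 h1 inf_le_right (ne_bot_of_le inf_le_right h2))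
    fun Y hY => h.p_one pq.symm hK.symm n2 h2 inf_le_right (ne_bot_of_le inf_le_right h1) Y hY.symm)

end Mn

end Cfsg.Agent.MP
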