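import Cfsg.Agent.MP.IP
import Cfsg.Agent.MP.ID

/-! Section Q: classification of the maximal invariant two-prime subgroups (see notes/s1917_plan.md). -/

set_option autoImplicit false
set_option linter.unusedSectionVars false

namespace Cfsg.Agent.MP

open Subgroup Cfsg.Agent.FT Cfsg.Agent.SF Cfsg.Agent.H1
open scoped commutatorElement

universe u
variable {G : Type u} [Group G] [Finite G] {r p q : ℕ} [hr : Fact r.Prime] [hp' : Fact p.Prime]
  [hq : Fact q.Prime] {A H K L M N R T U V W X Y : Subgroup G} {a b c g x : G}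

theorem q_core (hK : PQ p q A H K) (s : ℕ) [Fact s.Prime] : Pv s A H (core {s} K) :=
  ⟨(core_le _ _).trans hK.le, core_isPGroup _, le_normalizer_core _ hK.inv⟩

theorem q_cent (hK : PQ p q A H K) (pq : p ≠ q) (h3 : core {q} K = ⊥) :
    K ⊓ 𝐂(core {p} K) ≤ core {p} K :=
  cent_pcore_le hK.sol ((hK.core_eq pq).trans h3)

theorem q_disj (pq : p ≠ q) (hV : Pv p A H V) (hW : Pv q A H W) : V ⊓ W = ⊥ :=
  inf_eq_bot_of_coprime' (coprime_of_isPGroup_ne hV.pg hW.pg pq)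

namespace Mn

variable (h : Mn r A H)
include h

theorem q_kp (p : ℕ) [Fact p.Prime] (n : A ≤ 𝐍(K)) : Pv p A H (K ⊓ sy p A H) :=
  inf_comm K _ ▸ (h.sy_pv p).inf n

theorem q_bl {s : ℕ} [Fact s.Prime] (pq : p ≠ q) (hK : MX p q A H K) (hU : Pv s A H U)
    (h0 : U ≠ ⊥) (h3 : core {p} K ⊓ 𝐍(U) ≠ ⊥) (h4 : core {q} K ⊓ 𝐍(U) ≠ ⊥) (hX : Pv p A H X)
    (n : X ≤ 𝐍(U)) : X ≤ K := by
  obtain ⟨E, e1, -, e3⟩ := h.hn p q hU h0
  have n' := H2.le_normalizer_normalizer hU.inv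
  exact (e3 X (hX.pq q) n).trans (h.bl pq hK e1
    (ne_bot_of_le (le_inf (e3 _ (((q_core hK.toPQ p).inf n').pq q) inf_le_right) inf_le_left) h3)
    (ne_bot_of_le (le_inf (e3 _ (((q_core hK.toPQ q).inf n').pq p).symm inf_le_right) inf_le_left)
      h4))

theorem q_lt (h5 : ¬ sy p A H ≤ K) :
    K ⊓ sy p A H < sy p A H ⊓ 𝐍((K ⊓ sy p A H : Subgroup G)) :=
  lt_inf_normalizer (isNilpotent_of_isPGroup (h.sy_pv p).pg)
    (lt_of_le_of_ne inf_le_right fun e => h5 (e.ge.trans inf_le_left))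

theorem q_le (hK : MX p q A H K) (hU : Pv p A H U) (h0 : U ≠ ⊥) (n : K ≤ 𝐍(U))
    (n' : 𝐍((K ⊓ sy p A H : Subgroup G)) ≤ 𝐍(U)) : sy p A H ≤ K := by
  by_contra h5
  exact (h.q_lt h5).not_ge (le_inf (h.le_mx hK hU h0 n (((h.sy_pv p).inf
    (H2.le_normalizer_normalizer (h.q_kp p hK.inv).inv)).pq q) (inf_le_right.trans n')) inf_le_left)

theorem q_bot (pq : p ≠ q) (hK : MX p q A H K) (h3 : core {q} K = ⊥) (h4 : core {p} K = ⊥) :
    sy p A H ≤ K := by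
  have := q_cent hK.toPQ pq h3
  rw [h4, cent_bot, inf_top_eq] at this
  exact hK.max _ ((h.sy_pv p).pq q) (this.trans bot_le)

theorem q_cp (hK : MX p q A H K) (h3 : core {p} K ≠ ⊥) : sy p A H ⊓ 𝐂(core {p} K) ≤ K :=
  h.le_mx hK (q_core hK.toPQ p) h3 (core_nrm _ _).norm (((h.sy_pv p).inf
    (H2.le_normalizer_centralizer (q_core hK.toPQ p).inv)).pq q) (inf_le_right.trans (cent_le_norm _))

variable (h2 : ♯A = r ^ 2)
include h2

/-- (i) -/
theorem mixed (pq : p ≠ q) (hK : MX p q A H K) (h3 : core {p} K ≠ ⊥) (h4 : core {q} K ≠ ⊥)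
    (h5 : ¬ sy p A H ≤ K) : Small p A H := by
  have kp := h.q_kp p hK.inv
  have dp := q_core hK.toPQ p
  have dq := q_core hK.toPQ q
  have p1 := (h.sy_pv p).inf (H2.le_normalizer_normalizer kp.inv)
  have l1 : core {p} K ≤ K ⊓ sy p A H := le_inf (core_le _ _) dp.le_sy
  have l2 : core {p} K ≤ 𝐂(core {q} K) := core_le_cent_core (by simpa using pq) K
  have l3 : K ⊓ sy p A H ≤ 𝐍(core {q} K) := inf_le_left.trans (core_nrm _ _).norm
  have l4 := h.q_cp hK h3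
  have l5 := h.q_lt h5
  have l6 : K ⊓ sy p A H ≤ sy p A H := inf_le_right
  have l7 : sy p A H ⊓ 𝐂((K ⊓ sy p A H : Subgroup G)) ≤ K ⊓ sy p A H :=
    le_inf ((inf_le_inf_left _ (cent_anti l1)).trans l4) inf_le_left
  replace l5 : ¬ sy p A H ⊓ 𝐍((K ⊓ sy p A H : Subgroup G)) ≤ K := fun e =>
    l5.not_ge (le_inf e inf_le_left)
  generalize K ⊓ sy p A H = B at kp p1 l1 l3 l5 l6 l7
  have c1 : sy p A H ⊓ 𝐍(B) ⊓ 𝐂(A) ≤ K := by
    have n1 : 𝐍(sy q A H) ⊓ 𝐍(B) ≤ 𝐍((sSup {Y | Y ≤ sy q A H ∧ B ≤ 𝐍(Y)} : Subgroup G)) :=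
      fun g hg => mem_normalizer_of_cj_le (cj_le_iff_le_cj_inv.2 (sSup_le fun Y hY =>
        cj_le_iff_le_cj_inv.1 (le_sSup ⟨(cj_mono g hY.1).trans (cj_eq_iff_mem_normalizer.2 hg.1).le,
          by rw [← cj_normalizer, ← cj_eq_iff_mem_normalizer.2 hg.2]; exact cj_mono g hY.2⟩)))
    have n2 : B ≤ 𝐍((sSup {Y | Y ≤ sy q A H ∧ B ≤ 𝐍(Y)} : Subgroup G)) :=
      fun g hg => mem_normalizer_of_cj_le (cj_le_iff_le_cj_inv.2 (sSup_le fun Y hY =>
        cj_le_iff_le_cj_inv.1 ((cj_eq_iff_mem_normalizer.2 (hY.2 hg)).le.trans (le_sSup hY))))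
    have n3 : core {q} K ≤ sSup {Y | Y ≤ sy q A H ∧ B ≤ 𝐍(Y)} := le_sSup ⟨dq.le_sy, l3⟩
    refine h.q_bl pq hK ((h.sy_pv q).of_le (sSup_le fun Y hY => hY.1)
      ((le_inf (h.sy_pv q).inv kp.inv).trans n1)) (ne_bot_of_le n3 h4)
      (ne_bot_of_le (le_inf le_rfl (l1.trans n2)) h3)
      (ne_bot_of_le (le_inf le_rfl (n3.trans le_normalizer)) h4) (p1.inf (h.n_cent le_rfl))
      ((le_inf ((inf_le_inf_right _ p1.le).trans (h.cen_norm_sy q))
        (inf_le_left.trans inf_le_right)).trans n1)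
  obtain ⟨a, ha, a1, hR⟩ : ∃ a ∈ A, a ≠ 1 ∧ ¬ ⁅sy p A H ⊓ 𝐍(B) ⊓ 𝐂[a], A⁆ ≤ K := by
    by_contra! k
    exact l5 ((h.dec le_rfl p1.le p1.inv).le.trans (sup_le (h.g1 h2 p1 k) c1))
  have r1 := p1.inf (h.n_cent1 ha)
  have r2 := commutator_le_left' r1.inv
  have s1 := dq.inf (h.n_cent1 ha)
  have s2 := (commutator_le_left' s1.inv).trans inf_le_left
  have s3 : core {q} K ⊓ 𝐂[a] ≤ 𝐂(A) := by
    by_contra k
    rw [le_cent_iff_commutator] at k
    refine hR (h.q_bl pq hK s1.fl k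
      (ne_bot_of_le (le_inf le_rfl ((l2.trans (cent_anti s2)).trans (cent_le_norm _))) h3)
      (ne_bot_of_le (le_inf s2 le_normalizer) k) r1.fl (le_trans ?_ (cent_le_norm _)))
    exact (commutator_mono (inf_le_inf_right _ inf_le_left) le_rfl).trans ((h.nn h2 pq ha a1
      (h.sol _ inf_le_left (h.cen_ne ha a1) (H2.le_normalizer_inf h.nH (h.n_cent1 ha)))).trans
        (cent_anti (commutator_mono (inf_le_inf_right _ dq.le_sy) le_rfl)))
  have za := zpowers_le.2 ha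
  have y1 := h.m3 h2 pq.symm dq kp l3 ha s3
  refine ⟨a, ha, a1, ?_⟩
  have := isNilpotent_of_isPGroup (h.sy_pv p).pg
  rw [← cent_zpowers]
  refine H2.le_centralizer_of_self_centralizing (za.trans (h.sy_pv p).inv)
    (h.cp za (h.sy_pv p).le) l6 l7 ?_
  by_contra k
  rw [le_cent_iff_commutator] at k
  exact hR (h.q_bl pq hK (kp.of_le (commutator_le_left' (za.trans kp.inv))
    (H2.le_normalizer_commutator kp.inv ((h.ab.trans (cent_anti za)).trans (cent_le_norm _)))) k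
    (ne_bot_of_le (le_inf le_rfl (l1.trans (left_le_normalizer_commutator _ _))) h3)
    (ne_bot_of_le (le_inf le_rfl ((cent_symm y1).trans (cent_le_norm _))) h4) r1.fl
    (H2.le_normalizer_commutator (r2.trans (inf_le_left.trans inf_le_right))
      ((r2.trans (inf_le_right.trans (cent_zpowers a).ge)).trans (cent_le_norm _))))

/-- (ii), `p = 2` -/
theorem char_two (pq : 2 ≠ q) (hK : MX 2 q A H K) (h3 : core {q} K = ⊥) :
    sy 2 A H ≤ K ∧ K ≤ 𝐍(sy 2 A H) := by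
  have hy := h.toHy.mono hK.le hK.inv
  have kp := h.q_kp 2 hK.inv
  have e : K ⊓ sy 2 A H = core {2} K := by
    refine le_antisymm ?_ (le_inf (core_le _ _) (q_core hK.toPQ 2).le_sy)
    have := hy.s2 h2 pq hK.sol hK.pi h3
    rw [h.sy_inf 2 hK.le hK.inv] at this
    exact (h.dec le_rfl kp.le kp.inv).le.trans (sup_le this ((h.two kp).le.trans bot_le))
  have h4 : sy 2 A H ≤ K := by
    by_cases h0 : core {2} K = ⊥
    · exact h.q_bot pq hK h3 h0
    · exact h.q_le hK (q_core hK.toPQ 2) h0 (core_nrm _ _).norm (by rw [e])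
  exact ⟨h4, by rw [← inf_eq_right.2 h4, e]; exact (core_nrm _ _).norm⟩

theorem q_three (hK : MX 3 2 A H K) (h3 : core {2} K = ⊥) : sy 3 A H ≤ K := by
  have : Fact (Nat.Prime 3) := ⟨Nat.prime_three⟩
  have pq : 3 ≠ 2 := by decide
  induction hn : ♯(sy 3 A H) - ♯(K ⊓ sy 3 A H : Subgroup G) using Nat.strong_induction_on
    generalizing K with
  | _ n ih =>
  by_contra h5
  have h0 : core {3} K ≠ ⊥ := fun e => h5 (h.q_bot pq hK h3 e)
  have hP := h.sy_pv 3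
  have hS := h.sy_pv 2
  have k3 := h.q_kp 3 hK.inv
  have k2 := h.q_kp 2 hK.inv
  have d := q_core hK.toPQ 3
  have l1 : core {3} K ≤ K ⊓ sy 3 A H := le_inf (core_le _ _) d.le_sy
  have l2 := q_cent hK.toPQ pq h3
  have l3 := h.q_lt h5
  have l4 : K ⊓ sy 2 A H ≤ 𝐍(core {3} K) := inf_le_left.trans (core_nrm _ _).norm
  have hJ : Pv 3 A H (JJ 3 (K ⊓ sy 3 A H)) :=
    k3.of_le (JJ_le _) (k3.inv.trans (normalizer_le_normalizer_JJ _))
  obtain ⟨E, e1, -, e3⟩ := h.hn 3 2 hJ (JJ_ne_bot (.inr rfl) k3.pg (ne_bot_of_le l1 h0))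
  obtain ⟨M, hM, e4⟩ := e1.exists_mx
  have m1 : sy 3 A H ⊓ 𝐍((K ⊓ sy 3 A H : Subgroup G)) ≤ M := (e3 _ ((hP.inf
    (H2.le_normalizer_normalizer k3.inv)).pq 2)
      (inf_le_right.trans (normalizer_le_normalizer_JJ _))).trans e4
  have pk : ∀ X : Subgroup G, A ≤ 𝐍(X) → PQ 3 2 A H (K ⊓ X) := fun X n =>
    ⟨inf_le_left.trans hK.le, hK.pi.of_le inf_le_left, H2.le_normalizer_inf hK.inv n⟩
  by_cases h6 : sy 3 A H ≤ M
  · obtain ⟨-, -, hp⟩ := h.hp_spec pq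
    have hY : Pv 3 A H (SG.OZ 3 (sy 3 A H)) := hP.of_le (SG.OZ_le _ _) (hP.inv.trans (SG.norm_OZ _ _))
    have y1 := cent_symm (SG.OZ_cent 3 (sy 3 A H))
    obtain ⟨F, f1, -, f3⟩ := h.hn 3 2 hY (SG.OZ_ne_bot hP.pg fun e => h5 (e.le.trans bot_le))
    have t := (h.toHy.mono hK.le hK.inv).tf3 h2 hK.sol hK.pi h3 (Y := SG.OZ 3 (sy 3 A H))
    rw [h.sy_inf 3 hK.le hK.inv] at t
    replace t := t (le_inf ((le_inf (SG.OZ_le _ _) ((SG.OZ_cent _ _).trans
      (cent_anti d.le_sy))).trans (h.q_cp hK h0)) (SG.OZ_le _ _)) hY.inv (inf_le_right.trans y1)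
      fun y hy => hy.2.2
    refine h5 ((h.hp_spec pq).2.1.trans (hK.max _ (h.hp_spec pq).1.toPQ fun g hg => ?_))
    obtain ⟨x, hx, y, hy, rfl⟩ := t g hg
    exact mul_mem (hp M hM.toPQ h6 (e4 (e3 _ (pk _ (H2.le_normalizer_normalizer hJ.inv))
      inf_le_right hx))) (hp F f1 (f3 _ (hP.pq 2) (y1.trans (cent_le_norm _))) (f3 _ (pk _
        (H2.le_normalizer_centralizer hY.inv)) (inf_le_right.trans (cent_le_norm _)) hy))
  by_cases h7 : core {2} M = ⊥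
  · refine h6 (ih _ ?_ hM h7 rfl)
    have a1 := H1.card_lt_of_lt (l3.trans_le (le_inf m1 inf_le_left))
    have a2 := card_le_of_le' (inf_le_right : M ⊓ sy 3 A H ≤ _)
    omega
  have fin : ∀ X : Subgroup G, X ≤ K ⊓ sy 2 A H → X ≤ 𝐂(core {3} K) → X = ⊥ := fun X x1 x2 =>
    eq_bot_iff.2 ((le_inf ((le_inf (x1.trans inf_le_left) x2).trans l2) x1).trans
      (q_disj pq d k2).le)
  by_cases h8 : core {3} M = ⊥
  · have a1 := (h.char_two h2 pq.symm hM.symm h8).2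
    have a2 : K ⊓ sy 2 A H ≤ 𝐂(core {3} K) := le_cent_iff_commutator.2 (eq_bot_iff.2 ((le_inf
      (commutator_le_right' l4) ((commutator_mono inf_le_right le_rfl).trans (commutator_le_left'
        (((l1.trans l3.le).trans m1).trans a1)))).trans (q_disj pq d hS).le))
    refine h5 (hK.max _ (hP.pq 2) ((h.pq_eq hK.toPQ).le.trans (sup_le inf_le_right ?_)))
    rw [fin _ le_rfl a2]; exact bot_le
  obtain ⟨a, ha, a1, a2⟩ := h.mixed h2 pq hM h8 h7 h6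
  have a3 : K ⊓ sy 2 A H ≤ 𝐂[a] := by
    rw [← cent_zpowers, le_cent_iff_commutator]
    refine fin _ (commutator_le_left' ((zpowers_le.2 ha).trans k2.inv)) ?_
    exact (commutator_mono le_rfl (zpowers_le.2 (le_cent1_iff.1 (d.le_sy.trans a2)))).trans
      (commutator_le_right' (H2.le_normalizer_centralizer l4))
  obtain ⟨F, f1, -, f3⟩ := h.hl 3 2 inf_le_left (h.cen_ne ha a1)
    (H2.le_normalizer_inf h.nH (h.n_cent1 ha))
  exact h5 ((f3 _ (hP.pq 2) (le_inf hP.le a2)).trans (hK.max F f1 (f3 _ hK.toPQ (le_inf hK.le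
    ((h.pq_eq hK.toPQ).le.trans (sup_le (inf_le_right.trans a2) a3))))))

/-- (ii) -/
theorem charp (pq : p ≠ q) (hK : MX p q A H K) (h3 : core {q} K = ⊥) : sy p A H ≤ K := by
  by_cases h0 : core {p} K = ⊥
  · exact h.q_bot pq hK h3 h0
  by_cases p2 : p = 2
  · subst p2; exact (h.char_two h2 pq hK h3).1
  by_cases p3 : p = 3 ∧ q = 2
  · obtain ⟨rfl, rfl⟩ := p3
    exact h.q_three h2 hK h3
  have kp := h.q_kp p hK.inv
  have n := (normalizer_le_normalizer_JJ (n := p) (K ⊓ sy p A H)).trans (normalizer_JJ_le _)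
  have z := zj' p2 hK.sol (fun e T hT => ?_) (h.syl_inf p hK.le hK.inv)
  · rw [hK.core_eq pq, h3, bot_sup_eq] at z
    exact h.q_le hK (kp.of_le (ZJ_le _) (kp.inv.trans n)) (ZJ_ne_bot (.inr rfl) kp.pg
      (ne_bot_of_le (le_inf (core_le _ _) (q_core hK.toPQ p).le_sy) h0)) (z.trans inf_le_right) n
  · by_contra k
    rcases mem_of_piG_of_isPGroup (hK.pi.of_le hT.le) hT.isPGroup
      (fun e => k (e.le.trans bot_le)) with e' | e'
    exacts [p2 e'.symm, p3 ⟨e, e'.symm⟩]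

end Mn

end Cfsg.Agent.MP
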