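import Cfsg.Agent.MP.IZ
import Cfsg.Agent.SG.Fin
import Cfsg.Agent.S0205

/-! Section R: the reduction (see notes/s1917_plan.md). -/

set_option autoImplicit false
set_option linter.unusedSectionVars false

namespace Cfsg.Agent.MP

open Subgroup Cfsg.Agent.FT Cfsg.Agent.SF Cfsg.Agent.H1
open scoped commutatorElement

universe u
variable {G : Type u} [Group G] [Finite G] {r p q : ℕ} [hr : Fact r.Prime] [hp' : Fact p.Prime]
  [hq : Fact q.Prime] {A H K L M N R T U V W X Y : Subgroup G} {a b c g x : G}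

theorem Mn.false (h : Mn r A H) : False := by
  obtain ⟨k, hk⟩ := IsPGroup.iff_card.1 h.toHy.pgA
  obtain _ | _ | _ | k := k
  · have := h.odd
    rw [card_eq_one_iff.1 (hk.trans (pow_zero r)), cent_bot, inf_top_eq] at this
    exact this h.even
  · obtain ⟨s, hs, k⟩ := h.exists_large
    haveI := Fact.mk hs
    exact k (h.toHy.nl_of_rank_one (hk.trans (pow_one r)) s)
  · exact h.not_rank_two hk
  have n : ∀ a ∈ A, A ≤ 𝐍((H ⊓ 𝐂[a] : Subgroup G)) := fun a ha =>
    H2.le_normalizer_inf h.nH (h.toHy.n_cent1 ha)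
  have h3 : ∀ j ≤ 3, r ^ j ≤ ♯A := fun j hj => hk ▸ Nat.pow_le_pow_right hr.out.pos (by omega)
  obtain ⟨X, x1, x2⟩ := complete_of_core' (fun G _ _ A θ => SG.not_min A θ)
    (θ := fun a => H ⊓ 𝐂[a]) ⟨comm_iff_le_cent.2 h.ab, h.exp, fun _ _ _ => inf_le_right,
      fun a _ _ k => h.cop (k.trans (card_dvd_of_le' inf_le_left)), fun a ha _ => n a ha,
      fun a ha a1 => h.sol _ inf_le_left (fun e => a1 (h.faith a ha
        (le_cent1_iff.1 (e.ge.trans inf_le_right)))) (n a ha),
      fun _ _ _ _ _ _ => inf_le_inf_right _ inf_le_left⟩ (h3 3 le_rfl)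
  exact h.nsol (isSolvable_of_le (H2.le_of_forall_centralizer_le (comm_iff_le_cent.2 h.ab)
    (not_isCyclic_of_card h.exp (h3 2 (by decide))) h.nH (h.toHy.cp le_rfl le_rfl) x2) x1.solv)

theorem r_ind : ∀ (n : ℕ) {G : Type u} [Group G] [Finite G] {A H : Subgroup G},
    ♯A + ♯H < n → Hy r A H → Group.IsSolvable H := by
  intro n
  induction n with
  | zero => exact fun k => absurd k (Nat.not_lt_zero _)
  | succ n ih =>
  intro G _ _ A H hn h
  by_contra ns
  have sol : ∀ L : Subgroup G, L ≤ H → L ≠ H → A ≤ 𝐍(L) → Group.IsSolvable L := fun L a b c =>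
    ih (by have := H1.card_lt_of_lt (lt_of_le_of_ne a b); omega) (h.mono a c)
  refine Mn.false ⟨h, sol, fun N a b => ?_, ns, fun a ha hc => ?_, ?_⟩
  · by_contra! k
    refine ns (isSolvable_of_bar a.norm (sol N a.le k.2 b) (ih ?_ (h.bar a b)))
    have := card_bar_lt a k.1
    have := Nat.le_of_dvd (card_pos' A) (card_bar_dvd N A)
    omega
  · by_contra a1
    obtain ⟨B, -, b1, b2⟩ := H2.exists_complement_of_elementary (comm_iff_le_cent.2 h.ab) h.exp
      (zpowers_le.2 ha) bot_le (bot_inf_eq _)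
    have hB : B ≤ A := le_sup_left.trans b2.le
    have k : ∀ (s : ℕ) (V : Subgroup G), Pv s B H V → Pv s A H V := fun s V v => ⟨v.le, v.pg,
      b2.ge.trans (sup_le v.inv (((zpowers_le.2 hc).trans (cent_anti v.le)).trans (cent_le_norm V)))⟩
    refine ns (ih ?_ (⟨hB.trans (h.ab.trans (cent_anti hB)), fun x hx => h.exp x (hB hx), h.r2,
      hB.trans h.nH, h.cop, fun e => h.odd (e.trans (card_dvd_of_le' (le_inf inf_le_left ?_))),
      fun s hs V W v w => h.join s hs V W (k s V v) (k s W w)⟩ : Hy r B H))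
    · have := H1.card_lt_of_lt (lt_of_le_of_ne hB fun e => a1 (mem_bot.1
        (b1.le ⟨e.ge ha, mem_zpowers a⟩)))
      omega
    · rw [← b2, cent_sup]
      exact le_inf inf_le_right (inf_le_left.trans (cent_symm (zpowers_le.2 hc)))
  · by_contra k
    exact ns (odd_order_solvable (Nat.not_even_iff_odd.1 fun e => k e.two_dvd))

theorem Hy.solvable (h : Hy r A H) : Group.IsSolvable H := r_ind _ (Nat.lt_succ_self _) h

end Cfsg.Agent.MP
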