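import Cfsg.Agent.MP.IC

/-! Section S: the module lemma for three levels (see notes/s1917_plan.md). -/

set_option autoImplicit false
set_option linter.unusedSectionVars false

namespace Cfsg.Agent.MP

open Subgroup Cfsg.Agent.FT Cfsg.Agent.SF Cfsg.Agent.H1
open scoped commutatorElement

universe u
variable {G : Type u} [Group G] [Finite G] {r p q : ℕ} [hr : Fact r.Prime] [hp' : Fact p.Prime]
  [hq : Fact q.Prime] {A H K L M N R T U V W X Y : Subgroup G} {a b c g x : G}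

theorem Hy.s_zp (h : Hy r A H) (ha : a ∈ A) (hc : c ∈ zpowers a) (c1 : c ≠ 1) :
    zpowers c = zpowers a := by
  have a1 : a ≠ 1 := fun e => c1 (by rwa [e, zpowers_one_eq_bot, mem_bot] at hc)
  exact eq_of_le_of_card_le (zpowers_le.2 hc)
    (by rw [h.card_zp ha a1, h.card_zp (zpowers_le.2 ha hc) c1])
theorem Hy.s_nz (h : Hy r A H) (ha : a ∈ A) : A ≤ 𝐍(zpowers a) :=
  (h.ab.trans (cent_anti (zpowers_le.2 ha))).trans (cent_le_norm _)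

theorem Hy.s_d0 (h : Hy r A H) (h2 : ♯A = r ^ 2) (pq : p ≠ q) (hW : Pv p A H W) (hT : Pv q A H T)
    (n : T ≤ 𝐍(W)) (ab : T ≤ 𝐂(T)) (h0 : W ≠ ⊥) :
    ∃ a ∈ A, a ≠ 1 ∧ W ⊓ 𝐂(⁅T, zpowers a⁆) ≠ ⊥ := by
  obtain ⟨X, x1, m⟩ := exists_minNrm h0 (sup_le n hW.inv)
  have hX := hW.of_le x1 (le_sup_right.trans m.norm)
  have nX := le_sup_left.trans m.norm
  suffices k : ∃ a ∈ A, a ≠ 1 ∧ ⁅T, zpowers a⁆ ≤ 𝐂(X) by
    obtain ⟨a, ha, a1, k⟩ := k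
    exact ⟨a, ha, a1, ne_bot_of_le (le_inf x1 (cent_symm k)) m.ne_bot⟩
  by_cases k : ⁅T, A⁆ ≤ 𝐂(X)
  · obtain ⟨a, ha, a1⟩ := h.c_ex h2 1
    exact ⟨a, ha, fun e => a1 (e ▸ mem_zpowers _), (commutator_mono le_rfl (zpowers_le.2 ha)).trans k⟩
  obtain ⟨a, ha, a1, k1⟩ : ∃ a ∈ A, a ≠ 1 ∧ ¬ ⁅T ⊓ 𝐂[a], A⁆ ≤ 𝐂(X) := by
    by_contra! k1
    exact k (h.g1 h2 hT k1)
  have hU := hT.inf (h.n_cent1 ha)
  have k2 := h.m1 h2 pq hX hU (inf_le_left.trans nX) ha a1 inf_le_right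
  have k3 : X ⊓ 𝐂(⁅T ⊓ 𝐂[a], A⁆) = ⊥ := (m.eq_bot_or_eq inf_le_left (H2.le_normalizer_inf m.norm
    (H2.le_normalizer_centralizer (sup_le ((ab.trans (cent_anti ((commutator_le_left' hU.inv).trans
      inf_le_left))).trans (cent_le_norm _)) hU.fl.inv)))).resolve_right
    fun e => k1 (cent_symm (e.ge.trans inf_le_right))
  exact ⟨a, ha, a1, h.m3 h2 pq hX hT nX ha
    (((le_inf inf_le_left (cent_symm k2)).trans k3.le).trans bot_le)⟩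

theorem Hy.s_d (h : Hy r A H) (h2 : ♯A = r ^ 2) (pq : p ≠ q) (hV : Pv p A H V) (hT : Pv q A H T)
    (n : T ≤ 𝐍(V)) (ab : T ≤ 𝐂(T)) (abV : V ≤ 𝐂(V)) (hY : Y ≤ V) (nY : T ≤ 𝐍(Y)) (h0 : Y ≠ ⊥) :
    ∃ a ∈ A, a ≠ 1 ∧ Y ⊓ 𝐂(⁅T, zpowers a⁆) ≠ ⊥ := by
  by_contra! k
  have s1 : ∀ a ∈ A, ⁅T, zpowers a⁆ ≤ T := fun a ha =>
    commutator_le_left' ((zpowers_le.2 ha).trans hT.inv)
  have c : ∀ a ∈ A, ∀ X ≤ V, (♯(⁅T, zpowers a⁆ : Subgroup G)).Coprime ♯X := fun a ha X hX =>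
    coprime_of_isPGroup_ne (isPGroup_of_le (s1 a ha) hT.pg) (isPGroup_of_le hX hV.pg) pq.symm
  obtain ⟨W, w1, nW, w2, w3⟩ : ∃ W ≤ V, T ⊔ A ≤ 𝐍(W) ∧ Y ≤ W ∧
      ∀ a ∈ A, a ≠ 1 → W ≤ ⁅V, ⁅T, zpowers a⁆⁆ := by
    let F : {a // a ∈ A ∧ a ≠ 1} → Subgroup G := fun a => ⁅V, ⁅T, zpowers a.1⁆⁆
    have n1 : ∀ a, T ⊔ A ≤ 𝐍(F a) := fun a => H2.le_normalizer_commutator (sup_le n hV.inv)
      (sup_le (left_le_normalizer_commutator _ _) (H2.le_normalizer_commutator hT.inv (h.s_nz a.2.1)))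
    refine ⟨V ⊓ iInf F, inf_le_left, H2.le_normalizer_inf (sup_le n hV.inv)
      ((le_iInf n1).trans (iInf_normalizer_le_normalizer_iInf F)), le_inf hY (le_iInf fun a => ?_),
      fun a ha a1 => inf_le_right.trans (iInf_le F ⟨a, ha, a1⟩)⟩
    have e := H2.centralizer_sup_commutator ((s1 a a.2.1).trans nY) (c a a.2.1 Y hY)
      (.inr (isSolvable_of_isPGroup (isPGroup_of_le hY hV.pg)))
    rw [k a a.2.1 a.2.2, bot_sup_eq] at e
    exact e.ge.trans (commutator_mono hY le_rfl)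
  obtain ⟨a, ha, a1, k1⟩ := h.s_d0 h2 pq (hV.of_le w1 (le_sup_right.trans nW)) hT
    (le_sup_left.trans nW) ab (ne_bot_of_le w2 h0)
  refine k1 (eq_bot_iff.2 (le_trans ?_ (H2.centralizer_inf_commutator_eq_bot ((s1 a ha).trans n)
    (c a ha V le_rfl) (comm_iff_le_cent.2 abV)).le))
  exact le_inf inf_le_right (inf_le_left.trans (w3 a ha a1))

/-- the data of the lemma -/
structure SD (r p q : ℕ) (A H V T R : Subgroup G) (b : G) : Prop where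
  h : Hy r A H
  h2 : ♯A = r ^ 2
  pq : p ≠ q
  hV : Pv p A H V
  hT : Pv q A H T
  hR : Pv p A H R
  n1 : R ≤ 𝐍(T)
  n2 : T ≤ 𝐍(V)
  n3 : R ≤ 𝐍(V)
  hb : b ∈ A
  h1 : b ≠ 1
  hc : R ≤ 𝐂[b]
  hf : ⁅R, A⁆ = R

namespace SD

variable (s : SD r p q A H V T R b)
include s

theorem bar (hN : N ≤ H) (nA : A ≤ 𝐍(N)) (nV : V ≤ 𝐍(N)) (nT : T ≤ 𝐍(N)) (nR : R ≤ 𝐍(N)) :
    SD r p q (FT.bar N A) (FT.bar N (H ⊓ 𝐍(N))) (FT.bar N V) (FT.bar N T) (FT.bar N R)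
      (coset N b) := by
  have k : ∀ (t : ℕ) (X : Subgroup G), Pv t A H X → X ≤ 𝐍(N) →
      Pv t (FT.bar N A) (FT.bar N (H ⊓ 𝐍(N))) (FT.bar N X) := fun t X a n =>
    ⟨bar_mono N (le_inf a.le n), isPGroup_bar a.pg N, bar_le_normalizer N a.inv⟩
  have c := s.h.cp le_rfl hN
  refine ⟨(s.h.mono inf_le_left (H2.le_normalizer_inf s.h.nH (H2.le_normalizer_normalizer nA))).bar
    ⟨le_inf hN le_normalizer, inf_le_right⟩ nA, (card_bar_of_coprime nA c).trans s.h2, s.pq,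
    k _ _ s.hV nV, k _ _ s.hT nT, k _ _ s.hR nR, bar_le_normalizer N s.n1, bar_le_normalizer N s.n2,
    bar_le_normalizer N s.n3, coset_mem_bar N s.hb, fun e => s.h1 ?_,
    (bar_mono N s.hc).trans (bar_cent1_le (nA s.hb)), by rw [← bar_commutator nR nA, s.hf]⟩
  exact mem_bot.1 ((inf_eq_bot_of_coprime' c).le ⟨s.hb, (coset_eq_one_iff (nA s.hb)).1 e⟩)
theorem tb (e : ⁅T, R⁆ = T) : ⁅T, zpowers b⁆ = T := by
  have b1 := zpowers_le.2 s.hb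
  have n := b1.trans s.hT.inv
  have k := s.h.m1 s.h2 s.pq.symm s.hT s.hR s.n1 s.hb s.h1 s.hc
  rw [s.hf] at k
  have nR : R ≤ 𝐍(⁅T, zpowers b⁆) := H2.le_normalizer_commutator s.n1
    ((s.hc.trans (cent_zpowers b).ge).trans (cent_le_norm _))
  refine le_antisymm (commutator_le_left' n) (e.ge.trans ((commutator_mono (s.h.dec b1 s.hT.le n).le
    le_rfl).trans (H2.commutator_sup_left_le le_normalizer
      (inf_le_left.trans (left_le_normalizer_commutator _ _)) (commutator_le_left' nR) ?_)))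
  rw [cent_zpowers, le_cent_iff_commutator'.1 k]; exact bot_le
theorem star (e : ⁅T, R⁆ = T) (f : T ⊓ 𝐂(V) = ⊥) (t0 : T ≠ ⊥) (ha : a ∈ A) (a1 : a ≠ 1) :
    V ⊓ 𝐂[a] ≠ ⊥ := fun k => t0 <| by
  have k1 : ⁅T, zpowers a⁆ = ⊥ := eq_bot_iff.2 ((le_inf (commutator_le_left' ((zpowers_le.2 ha).trans
    s.hT.inv)) (s.h.m3 s.h2 s.pq s.hV s.hT s.n2 ha (k.le.trans bot_le))).trans f.le)
  by_cases k2 : a ∈ zpowers b
  · rwa [s.h.s_zp s.hb k2 a1, s.tb e] at k1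
  have k3 := s.h.fl_eq s.h2 s.hb s.h1 ha k2 s.hc s.hR.inv
  rw [s.hf] at k3
  rw [← e, ← le_cent_iff_commutator', ← k3]
  exact (commutator_mono le_rfl (le_cent_iff_commutator'.2 k1)).trans
    (commutator_le_right' (H2.le_normalizer_centralizer s.n1))

theorem nab (e : ⁅T, R⁆ = T) (f : T ⊓ 𝐂(V) = ⊥) (t0 : T ≠ ⊥)
    (i1 : ∀ X < T, R ≤ 𝐍(X) → A ≤ 𝐍(X) → R ≤ 𝐂(X))
    (i2 : ∀ X ≤ T, X ≠ ⊥ → T ≤ 𝐍(X) → R ≤ 𝐍(X) → A ≤ 𝐍(X) → V ⊓ 𝐂(X) = ⊥) : T ≤ 𝐂(T) := by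
  by_contra k
  have h := s.h
  have z1 : R ≤ 𝐂(𝐙(T)) := i1 _ (inf_lt_left.2 k) (le_normalizer_ctr s.n1) (le_normalizer_ctr s.hT.inv)
  have z2 : ⁅T, T⁆ ≤ 𝐙(T) := le_inf (der_le T) (cent_symm (e.ge.trans ((commutator_mono le_rfl
    (i1 _ (der_lt (isSolvable_of_isPGroup s.hT.pg) t0) (le_normalizer_der s.n1)
      (le_normalizer_der s.hT.inv))).trans (commutator_le_right'
        (H2.le_normalizer_centralizer (der_nrm T).norm)))))
  have u1 : ∀ X, Pv q A H X → X ≤ T → ∀ a ∈ A, a ≠ 1 → ⁅X ⊓ 𝐂[a], A⁆ ⊓ 𝐙(T) = ⊥ := by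
    intro X hX x1 a ha a1
    have hU := hX.inf (h.n_cent1 ha)
    by_contra k1
    refine s.star e f t0 ha a1 (eq_bot_iff.2 (le_trans ?_ (i2 _ (inf_le_right.trans inf_le_left) k1
      (((le_cent_ctr T).trans (cent_anti inf_le_right)).trans (cent_le_norm _))
      ((z1.trans (cent_anti inf_le_right)).trans (cent_le_norm _))
      (H2.le_normalizer_inf hU.fl.inv (le_normalizer_ctr s.hT.inv))).le))
    exact le_inf inf_le_left ((cent_symm (h.m1 s.h2 s.pq s.hV hU ((inf_le_left.trans x1).trans s.n2)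
      ha a1 inf_le_right)).trans (cent_anti inf_le_left))
  have hZ : Pv q A H 𝐙(T) := s.hT.of_le inf_le_left (le_normalizer_ctr s.hT.inv)
  have z3 : 𝐙(T) ≤ 𝐂(A) := le_cent_iff_commutator.2 (eq_bot_iff.2 (h.g1 s.h2 hZ fun a ha a1 =>
    (le_inf le_rfl ((commutator_le_left' (hZ.inf (h.n_cent1 ha)).inv).trans inf_le_left)).trans
      (u1 _ hZ inf_le_left a ha a1).le))
  have u2 : ∀ a ∈ A, ⁅T ⊓ 𝐂[a], A⁆ ≤ T ⊓ 𝐂[a] := fun a ha =>
    commutator_le_left' (s.hT.inf (h.n_cent1 ha)).inv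
  have u3 : ∀ a ∈ A, a ≠ 1 → ∀ c ∈ A, c ≠ 1 → ⁅T ⊓ 𝐂[c], A⁆ ≤ 𝐂(⁅T ⊓ 𝐂[a], A⁆) := by
    intro a ha a1 c hc c1
    have z4 := (commutator_mono ((u2 a ha).trans inf_le_left) ((u2 c hc).trans inf_le_left)).trans z2
    rw [le_cent_iff_commutator', eq_bot_iff]
    by_cases k1 : a ∈ zpowers c
    · have e1 : (𝐂[a] : Subgroup G) = 𝐂[c] := by
        rw [← cent_zpowers, h.s_zp hc k1 a1, cent_zpowers]
      rw [e1] at z4 ⊢
      exact (le_inf (der_le _) z4).trans (u1 T s.hT le_rfl c hc c1).le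
    have hU := s.hT.inf (h.n_cent1 hc)
    have k2 := h.fl_eq s.h2 hc c1 ha k1 ((u2 c hc).trans inf_le_right) hU.fl.inv
    rw [h.fl_fl le_rfl hU.le hU.inv] at k2
    rw [commutator_comm, ← k2]
    refine H2.three_subgroups' (norm_bot.ge.trans' le_top) (norm_bot.ge.trans' le_top)
      (norm_bot.ge.trans' le_top) ?_ ?_
    · rw [le_cent_iff_commutator'.1 (((u2 a ha).trans inf_le_right).trans (cent_zpowers a).ge),
        commutator_bot_left]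
    · exact (le_cent_iff_commutator.1 ((z4.trans z3).trans (cent_anti (zpowers_le.2 ha)))).le
  have k1 : T ≤ ⁅T, A⁆ := (s.tb e).ge.trans (commutator_mono le_rfl (zpowers_le.2 s.hb))
  exact k (k1.trans ((h.g1 s.h2 s.hT fun a ha a1 => cent_symm
    (h.g1 s.h2 s.hT fun c hc c1 => u3 a ha a1 c hc c1)).trans (cent_anti k1)))

theorem ab (e : ⁅T, R⁆ = T) (v0 : V ≠ ⊥) (f : V ⊓ 𝐂(T) = ⊥) (abV : V ≤ 𝐂(V)) (abT : T ≤ 𝐂(T)) :
    False := by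
  have h := s.h
  obtain ⟨Y, y1, m⟩ := exists_minNrm v0 s.n2
  have k0 : ¬ T ≤ 𝐂(Y) := fun k => m.ne_bot (eq_bot_iff.2 ((le_inf y1 (cent_symm k)).trans f.le))
  have nK : T ≤ 𝐍((T ⊓ 𝐂(Y) : Subgroup G)) :=
    (abT.trans (cent_anti inf_le_left)).trans (cent_le_norm _)
  have d : ∀ x ∈ R, ∃ a ∈ A, a ≠ 1 ∧ x⁻¹ * a * x ∈ unbar (T ⊓ 𝐂(Y)) 𝐂(FT.bar (T ⊓ 𝐂(Y)) T) := by
    intro x hx
    have eT : H1.cj x T = T := cj_eq_iff_mem_normalizer.2 (s.n1 hx)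
    have eT' : H1.cj x⁻¹ T = T := cj_eq_iff_mem_normalizer.2 (inv_mem (s.n1 hx))
    obtain ⟨a, ha, a1, k⟩ := h.s_d s.h2 s.pq s.hV s.hT s.n2 abT abV (Y := H1.cj x Y)
      ((cj_mono x y1).trans (cj_eq_iff_mem_normalizer.2 (s.n3 hx)).le)
      (by rw [← cj_normalizer]; exact eT.ge.trans (cj_mono x m.norm))
      (cj_eq_bot_iff.not.2 m.ne_bot)
    rw [Ne, ← cj_eq_bot_iff (g := x⁻¹), cj_inf, cj_inv_cj, cj_centralizer, cj_commutator, eT'] at k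
    have k1 : H1.cj x⁻¹ (zpowers a) ≤ 𝐍(T) := by
      rw [← eT', ← cj_normalizer]; exact cj_mono _ ((zpowers_le.2 ha).trans s.hT.inv)
    have k2 : ⁅T, H1.cj x⁻¹ (zpowers a)⁆ ≤ T ⊓ 𝐂(Y) := le_inf (commutator_le_left' k1)
      (cent_symm ((m.min _ inf_le_left (H2.le_normalizer_inf m.norm (H2.le_normalizer_centralizer
        (left_le_normalizer_commutator _ _))) k).ge.trans inf_le_right))
    have k3 := le_normalizer_of_commutator_le ((commutator_mono inf_le_left le_rfl).trans k2)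
    refine ⟨a, ha, a1, (le_unbar_iff k3).2 ((bar_le_cent_iff k3 nK).2 ?_) ?_⟩
    · rwa [commutator_comm]
    · simpa using conj_mem_cj (g := x⁻¹) (mem_zpowers a)
  have d1 : ∀ X ≤ unbar (T ⊓ 𝐂(Y)) 𝐂(FT.bar (T ⊓ 𝐂(Y)) T), ⁅T, X⁆ ≠ T := fun X hX k => by
    have k3 := hX.trans (unbar_le _)
    have k4 := (bar_le_cent_iff k3 nK).1 ((le_unbar_iff k3).1 hX)
    rw [commutator_comm, k] at k4
    exact k0 (k4.trans inf_le_right)
  generalize unbar (T ⊓ 𝐂(Y)) 𝐂(FT.bar (T ⊓ 𝐂(Y)) T) = S at *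
  have b0 : b ∉ S := fun k => d1 _ (zpowers_le.2 k) (s.tb e)
  obtain ⟨a, ha, a1, aS⟩ := d 1 (one_mem R)
  rw [inv_one, one_mul, mul_one] at aS
  have ab : a ∉ zpowers b := fun k => b0 (((h.s_zp s.hb k a1).ge.trans (zpowers_le.2 aS)) (mem_zpowers b))
  have k3 := h.fl_eq s.h2 s.hb s.h1 ha ab s.hc s.hR.inv
  rw [s.hf] at k3
  refine d1 R (k3.ge.trans (commutator_le.2 fun x hx y hy => ?_)) e
  obtain ⟨c, hc, c1, cS⟩ := d x⁻¹ (inv_mem hx)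
  by_cases k : c ∈ zpowers a
  · have k4 : H1.cj x (zpowers a) ≤ S := by
      rw [← h.s_zp ha k c1, cj_le_iff_le_cj_inv, zpowers_le, mem_cj, inv_inv]
      rwa [inv_inv] at cS
    exact mul_mem (k4 (conj_mem_cj hy)) (inv_mem (zpowers_le.2 aS hy))
  exfalso
  have k4 : A ≤ (S ⊓ 𝐍(R)) ⊔ R := by
    rw [← h.sup_zp s.h2 ha a1 hc k]
    refine sup_le (zpowers_le.2 (mem_sup_left ⟨aS, s.hR.inv ha⟩)) (zpowers_le.2 ?_)
    have hx' : x ∈ (S ⊓ 𝐍(R)) ⊔ R := mem_sup_right hx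
    have hn : x⁻¹ ∈ 𝐍(R) := inv_mem (le_normalizer hx)
    have k5 : x⁻¹⁻¹ * c * x⁻¹ ∈ (S ⊓ 𝐍(R)) ⊔ R := mem_sup_left (mem_inf.2 ⟨cS, mul_mem (mul_mem
      (inv_mem hn) (s.hR.inv hc)) hn⟩)
    simpa [mul_assoc] using mul_mem (mul_mem (inv_mem hx') k5) hx'
  obtain ⟨u, hu, v, hv, e1⟩ := (H2.mem_sup_of_le_normalizer inf_le_right).1 (k4 s.hb)
  have k5 : u ^ ♯R = b ^ ♯R := by
    rw [eq_mul_inv_of_mul_eq e1, Commute.mul_pow (Commute.inv_right (mem_cent1_iff.1 (s.hc hv)).symm),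
      inv_pow, pow_card_eq_one'' hv, inv_one, mul_one]
  refine b0 (zpowers_le.2 (k5 ▸ pow_mem hu.1 ♯R) (mem_zpowers_pow_iff.2 ?_))
  rw [← Nat.card_zpowers]
  exact (h.cp (zpowers_le.2 s.hb) s.hR.le).symm

end SD

theorem s_ind : ∀ (n : ℕ) {G : Type u} [Group G] [Finite G] {A H V T R : Subgroup G} {b : G},
    ♯V + ♯T < n → SD r p q A H V T R b → V ≤ 𝐂(V) → ⁅T, R⁆ ≤ 𝐂(V) := by
  intro n
  induction n with
  | zero => exact fun k => absurd k (Nat.not_lt_zero _)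
  | succ n ih =>
  intro G _ _ A H V T R b hn s abV
  have t1 : ⁅T, R⁆ ≤ T := commutator_le_left' s.n1
  by_cases f : T ⊓ 𝐂(V) = ⊥
  swap
  · have hN := s.hT.inf (H2.le_normalizer_centralizer s.hV.inv)
    have nV : V ≤ 𝐍((T ⊓ 𝐂(V) : Subgroup G)) := (cent_symm inf_le_right).trans (cent_le_norm _)
    have nT := (nrm_inf_centralizer s.n2).norm
    have nR := H2.le_normalizer_inf s.n1 (H2.le_normalizer_centralizer s.n3)
    have k := ih (by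
      have := card_bar_lt (nrm_inf_centralizer s.n2) f
      have := Nat.le_of_dvd (card_pos' V) (card_bar_dvd (T ⊓ 𝐂(V)) V)
      omega) (s.bar hN.le hN.inv nV nT nR) (bar_le_cent _ abV)
    rw [← bar_commutator nT nR, bar_le_cent_iff (t1.trans nT) nV] at k
    rw [le_cent_iff_commutator, eq_bot_iff,
      ← inf_eq_bot_of_coprime' (coprime_of_isPGroup_ne s.hV.pg s.hT.pg s.pq)]
    exact le_inf (commutator_le_right' (t1.trans s.n2)) (k.trans inf_le_left)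
  have i1 : ∀ X < T, R ≤ 𝐍(X) → A ≤ 𝐍(X) → R ≤ 𝐂(X) := fun X x1 x2 x3 => by
    have k := ih (by have := H1.card_lt_of_lt x1; omega) (⟨s.h, s.h2, s.pq, s.hV, s.hT.of_le x1.le x3,
      s.hR, x2, x1.le.trans s.n2, s.n3, s.hb, s.h1, s.hc, s.hf⟩ : SD r p q A H V X R b) abV
    rw [le_cent_iff_commutator', eq_bot_iff, ← f]
    exact le_inf ((commutator_le_left' x2).trans x1.le) k
  by_contra k
  have e : ⁅T, R⁆ = T := by
    by_contra e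
    have k1 := le_cent_iff_commutator'.1 (i1 _ (lt_of_le_of_ne t1 e) (right_le_normalizer_commutator T R)
      (H2.le_normalizer_commutator s.hT.inv s.hR.inv))
    rw [H2.commutator_commutator_eq s.n1 (coprime_of_isPGroup_ne s.hR.pg s.hT.pg s.pq)] at k1
    exact k (k1.le.trans bot_le)
  rw [e] at k
  have t0 : T ≠ ⊥ := fun e => k (e.le.trans bot_le)
  have j : ∀ X < V, T ≤ 𝐍(X) → R ≤ 𝐍(X) → A ≤ 𝐍(X) → X ≤ 𝐂(T) := fun X x1 x2 x3 x4 => by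
    have k := ih (by have := H1.card_lt_of_lt x1; omega) (⟨s.h, s.h2, s.pq, s.hV.of_le x1.le x4, s.hT,
      s.hR, s.n1, x2, x3, s.hb, s.h1, s.hc, s.hf⟩ : SD r p q A H X T R b)
      ((x1.le.trans abV).trans (cent_anti x1.le))
    exact cent_symm (e.ge.trans k)
  have i2 : ∀ X ≤ T, X ≠ ⊥ → T ≤ 𝐍(X) → R ≤ 𝐍(X) → A ≤ 𝐍(X) → V ⊓ 𝐂(X) = ⊥ := by
    intro X x1 x0 x2 x3 x4
    by_contra k1
    have c := coprime_of_isPGroup_ne (isPGroup_of_le x1 s.hT.pg) s.hV.pg s.pq.symm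
    have nX := x1.trans s.n2
    refine k (cent_symm ((H2.centralizer_sup_commutator nX c
      (.inr (isSolvable_of_isPGroup s.hV.pg))).ge.trans (sup_le (j _ (inf_lt_left.2 fun k2 => x0 ?_)
        ?_ ?_ ?_) (j _ (lt_of_le_of_ne (commutator_le_left' nX) fun k2 => k1 ?_)
          (H2.le_normalizer_commutator s.n2 x2) (H2.le_normalizer_commutator s.n3 x3)
          (H2.le_normalizer_commutator s.hV.inv x4)))))
    · exact eq_bot_iff.2 ((le_inf x1 (cent_symm k2)).trans f.le)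
    · exact H2.le_normalizer_inf s.n2 (H2.le_normalizer_centralizer x2)
    · exact H2.le_normalizer_inf s.n3 (H2.le_normalizer_centralizer x3)
    · exact H2.le_normalizer_inf s.hV.inv (H2.le_normalizer_centralizer x4)
    · have k3 := H2.centralizer_inf_commutator_eq_bot nX c (comm_iff_le_cent.2 abV)
      rwa [k2, inf_comm] at k3
  refine s.ab e (fun v0 => k ?_) (i2 T le_rfl t0 le_normalizer s.n1 s.hT.inv) abV (s.nab e f t0 i1 i2)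
  rw [v0, cent_bot]; exact le_top

/-- (S2m) -/
theorem Hy.s2m (h : Hy r A H) (h2 : ♯A = r ^ 2) (pq : p ≠ q) (hV : Pv p A H V) (hT : Pv q A H T)
    (hR : Pv p A H R) (n1 : R ≤ 𝐍(T)) (n2 : T ≤ 𝐍(V)) (n3 : R ≤ 𝐍(V)) (hb : b ∈ A) (h1 : b ≠ 1)
    (hc : R ≤ 𝐂[b]) (hf : ⁅R, A⁆ = R) : ⁅T, R⁆ ≤ 𝐂(V) := by
  have s : SD r p q A H V T R b := ⟨h, h2, pq, hV, hT, hR, n1, n2, n3, hb, h1, hc, hf⟩
  have nT := le_normalizer_phi n2
  have nR := le_normalizer_phi n3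
  have t1 : ⁅T, R⁆ ≤ T := commutator_le_left' n1
  have k := s_ind _ (Nat.lt_succ_self _) (s.bar ((phi_le V).trans hV.le) (le_normalizer_phi hV.inv)
    (phi_nrm V).norm nT nR) ((bar_le_cent_iff (phi_nrm V).norm (phi_nrm V).norm).2 (der_le_phi hV.pg))
  rw [← bar_commutator nT nR, bar_le_cent_iff (t1.trans nT) (phi_nrm V).norm, commutator_comm] at k
  exact cent_symm (le_cent_of_commutator_le_phi (t1.trans n2)
    (coprime_of_isPGroup_ne (isPGroup_of_le t1 hT.pg) hV.pg pq.symm) k)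

end Cfsg.Agent.MP
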