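import Cfsg.Agent.MP.IE
import Cfsg.Agent.MP.IN

/-! Section Z: the end of the case of rank two (see notes/s1917_plan.md). -/

set_option autoImplicit false
set_option linter.unusedSectionVars false

namespace Cfsg.Agent.MP

open Subgroup Cfsg.Agent.FT Cfsg.Agent.SF Cfsg.Agent.H1
open scoped commutatorElement

universe u
variable {G : Type u} [Group G] [Finite G] {r p q : ℕ} [hr : Fact r.Prime] [hp' : Fact p.Prime]
  [hq : Fact q.Prime] {A H K L M N R T U V W X Y : Subgroup G} {a b c g x : G}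

theorem z_cop (hX : X ≤ L) (h : (Y.relIndex L).Coprime (X.relIndex L)) : IsProd L X Y := by
  refine (isProd_iff_relIndex hX).2 (le_antisymm (relIndex_le_of_le_right hX (relIndex_pos _ _).ne')
    (Nat.le_of_dvd (relIndex_pos _ _) (h.dvd_of_dvd_mul_right ?_)))
  have := relIndex_inf_mul_relIndex Y X L
  rw [inf_eq_left.2 hX] at this
  exact this ▸ relIndex_dvd_of_le_left _ inf_le_left

theorem z_prod {ι : Sort*} {B : ι → Subgroup G} (h : ∀ i, IsProd (B i ⊔ T) (B i) T) :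
    IsProd ((⨆ i, B i) ⊔ T) (⨆ i, B i) T := by
  have k : ∀ z ∈ ⨆ i, B i, ∀ t ∈ T, ∃ z' ∈ ⨆ i, B i, ∃ t' ∈ T, t * z = z' * t' := fun z hz => by
    refine iSup_induction B (C := fun z => ∀ t ∈ T, ∃ z' ∈ ⨆ i, B i, ∃ t' ∈ T, t * z = z' * t') hz
      (fun i x hx t ht => ?_) (fun t ht => ⟨1, one_mem _, t, ht, by simp⟩) fun x y hx hy t ht => ?_
    · obtain ⟨x', hx', e⟩ := h i _ (mul_mem (mem_sup_right ht) (mem_sup_left hx))
      exact ⟨x', mem_iSup_of_mem i hx', e⟩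
    · obtain ⟨x', hx', t', ht', e⟩ := hx t ht
      obtain ⟨y', hy', t'', ht'', e'⟩ := hy t' ht'
      exact ⟨_, mul_mem hx' hy', t'', ht'', by rw [← mul_assoc, e, mul_assoc, e', mul_assoc]⟩
  let W : Subgroup G :=
    { carrier := {g | ∃ z ∈ ⨆ i, B i, ∃ t ∈ T, g = z * t}
      one_mem' := ⟨1, one_mem _, 1, one_mem _, by simp⟩
      mul_mem' := by
        rintro _ _ ⟨z, hz, t, ht, rfl⟩ ⟨y, hy, s, hs, rfl⟩
        obtain ⟨y', hy', t', ht', e⟩ := k y hy t ht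
        exact ⟨_, mul_mem hz hy', _, mul_mem ht' hs, by
          rw [mul_assoc, ← mul_assoc t, e]; simp only [mul_assoc]⟩
      inv_mem' := by
        rintro _ ⟨z, hz, t, ht, rfl⟩
        exact mul_inv_rev z t ▸ k _ (inv_mem hz) _ (inv_mem ht) }
  exact (sup_le (fun z hz => ⟨z, hz, 1, one_mem _, by simp⟩) fun t ht =>
    ⟨1, one_mem _, t, ht, by simp⟩ : _ ≤ W)

theorem z_norm {ι : Sort*} {B : ι → Subgroup G} (h : ∀ i, X ≤ 𝐍(B i)) :
    X ≤ 𝐍((⨆ i, B i : Subgroup G)) := fun _ hg => mem_normalizer_of_cj_le (cj_le_iff_le_cj_inv.2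
  (iSup_le fun i => cj_le_iff_le_cj_inv.1 ((cj_eq_iff_mem_normalizer.2 (h i hg)).le.trans
    (le_iSup B i))))

namespace Hy

variable (h : Hy r A H)
include h

theorem z_pq (h3 : Perm p q A H) : PQ p q A H (sy p A H ⊔ sy q A H) :=
  ⟨sup_le (h.sy_pv p).le (h.sy_pv q).le, h3, H2.le_normalizer_sup (h.sy_pv p).inv (h.sy_pv q).inv⟩

theorem z_perm (pq : p ≠ q) (h3 : Perm p q A H) :
    IsProd (sy p A H ⊔ sy q A H) (sy p A H) (sy q A H) := by
  have := h.pq_prod pq (h.z_pq h3)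
  rwa [inf_eq_right.2 le_sup_left, inf_eq_right.2 le_sup_right] at this

theorem z_sy (h3 : Perm p q A H) : sy p A (sy p A H ⊔ sy q A H) = sy p A H ∧
    sy q A (sy p A H ⊔ sy q A H) = sy q A H :=
  ⟨(h.sy_inf p (h.z_pq h3).le (h.z_pq h3).inv).trans (inf_eq_right.2 le_sup_left),
    (h.sy_inf q (h.z_pq h3).le (h.z_pq h3).inv).trans (inf_eq_right.2 le_sup_right)⟩

theorem z_nrm (h3 : Perm p q A H) (h4 : ⁅sy p A H, A⁆ ≤ core {p} (sy p A H ⊔ sy q A H)) :
    sy q A H ≤ 𝐍(⁅sy p A H, A⁆) := by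
  have := (h.mono (h.z_pq h3).le (h.z_pq h3).inv).nrm_fl (p := p)
  rw [(h.z_sy h3).1] at this
  exact le_sup_right.trans (this h4)

theorem z_l1 (pq : p ≠ q) (h3 : Perm p q A H) (h4 : ∀ V U, Pv q A H V → Pv p A H U → U ≤ 𝐍(V) →
    ⁅U, A⁆ ≤ 𝐂(V)) : sy q A H ≤ 𝐍(⁅sy p A H, A⁆) := by
  have hL := h.z_pq h3
  have := (h.mono hL.le hL.inv).l1 pq hL.sol
  rw [(h.z_sy h3).1, (h.z_sy h3).2, hL.symm.core_eq pq.symm] at this
  have hV := (h.sy_pv q).inf (le_normalizer_core2 {q}ᶜ {q} hL.inv)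
  exact h.z_nrm h3 (this (h4 _ _ hV ((h.sy_pv p).inf (H2.le_normalizer_normalizer hV.inv))
    inf_le_right))

theorem z_p2 (h2 : ♯A = r ^ 2) (pq : p ≠ q) (h3 : Perm p q A H) (hb : b ∈ A)
    (h4 : sy p A H ⊓ 𝐂[b] ≤ 𝐂(A)) (h5 : sy q A H ⊓ 𝐂[b] ≤ 𝐂(A)) :
    sy q A H ≤ 𝐍(⁅sy p A H, A⁆) := by
  refine h.z_l1 pq h3 fun V U hV hU n => le_trans ?_
    (h.m3 h2 pq.symm hV hU n hb ((inf_le_inf_right _ hV.le_sy).trans h5))
  have zb := zpowers_le.2 hb
  refine (commutator_mono (h.dec zb hU.le (zb.trans hU.inv)).le le_rfl).trans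
    (H2.commutator_sup_left_le le_normalizer (inf_le_left.trans (left_le_normalizer_commutator _ _))
      (commutator_le_left' (H2.le_normalizer_commutator hU.inv
        ((h.ab.trans (cent_anti zb)).trans (cent_le_norm _)))) ?_)
  rw [cent_zpowers, le_cent_iff_commutator.1 ((inf_le_inf_right _ hU.le_sy).trans h4)]
  exact bot_le

theorem z_p3 (h2 : ♯A = r ^ 2) (pq : p ≠ q) (h3 : Perm p q A H)
    (h4 : sy p A H ⊓ 𝐍(⁅sy q A H, A⁆) ≤ 𝐂(A)) : sy q A H ≤ 𝐍(⁅sy p A H, A⁆) := by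
  have hL := h.z_pq h3
  have hy := h.mono hL.le hL.inv
  have k := hy.sy_le_sup p (core_nrm _ _) (le_normalizer_core _ hL.inv) inf_le_left
    (H2.le_normalizer_inf hL.inv (H2.le_normalizer_normalizer (right_le_normalizer_commutator _ _)))
    (hy.s3 h2 pq.symm hL.sol hL.symm.pi)
  rw [(h.z_sy h3).1, (h.z_sy h3).2] at k
  refine h.z_nrm h3 ((commutator_mono k le_rfl).trans (H2.commutator_sup_left_le le_normalizer
    ((inf_le_left.trans inf_le_left).trans (core_nrm _ _).norm)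
    (commutator_le_left' (le_normalizer_core _ hL.inv)) ?_))
  rw [le_cent_iff_commutator.1 ((le_inf inf_le_right (inf_le_left.trans inf_le_right)).trans h4)]
  exact bot_le

theorem z_fl (h2 : ♯A = r ^ 2) (h3 : ¬ NL p A H) : ⁅sy p A H, A⁆ ≠ ⊥ := fun e => by
  obtain ⟨a, -, -, k⟩ := h.large h2 h3
  obtain ⟨b, hb, k'⟩ := h.c_ex h2 a
  exact k b hb k' (inf_le_left.trans (le_cent_iff_commutator.2 e))

theorem z_prod' (F : Finset ℕ) (h1 : ∀ s ∈ F, s.Prime) (h2 : ∀ s ∈ F, s ≠ p ∧ Perm s p A H) :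
    IsProd ((⨆ s : F, sy s A H) ⊔ sy p A H) (⨆ s : F, sy s A H) (sy p A H) :=
  z_prod fun s => have := Fact.mk (h1 s s.2); h.z_perm (h2 s s.2).1 (h2 s s.2).2

theorem z_pi (F : Finset ℕ) (h1 : ∀ s ∈ F, s.Prime)
    (h2 : ∀ s ∈ F, ∀ t ∈ F, s ≠ t → Perm s t A H) : PiG F (⨆ s : F, sy s A H) := by
  induction F using Finset.induction_on with
  | empty => rw [iSup_of_empty]; exact PiG.bot _
  | insert t F ht ih =>
    have := Fact.mk (h1 t (Finset.mem_insert_self _ _))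
    have k := h.z_prod' (p := t) F (fun s hs => h1 s (Finset.mem_insert_of_mem hs)) fun s hs =>
      have e : s ≠ t := fun e => ht (e ▸ hs)
      ⟨e, h2 s (Finset.mem_insert_of_mem hs) t (Finset.mem_insert_self _ _) e⟩
    refine PiG.of_le ((piNum_mul_iff.2 ⟨(ih (fun s hs => h1 s (Finset.mem_insert_of_mem hs))
      fun s hs u hu => h2 s (Finset.mem_insert_of_mem hs) u (Finset.mem_insert_of_mem hu)).mono
        (by simp), piG_of_isPGroup (h.sy_pv t).pg (by simp)⟩).of_dvd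
      (Dvd.intro _ ((isProd_iff_card le_sup_left le_sup_right).1 k))) (iSup_le ?_)
    rintro ⟨s, hs⟩
    rcases Finset.mem_insert.1 hs with rfl | hs
    · exact le_sup_right
    · exact le_sup_of_le_left (le_iSup (fun s : F => sy s A H) ⟨s, hs⟩)

end Hy

namespace Mn

variable (h : Mn r A H) (h2 : ♯A = r ^ 2)
include h h2

/-- case 1 -/
theorem perm_of_large (pq : p ≠ q) (h3 : ¬ NL p A H) : Perm p q A H := by
  by_contra h4
  have sq : Small q A H := by_contra fun k => h4 (h.e1 h2 pq h3 k)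
  obtain ⟨b, hb, b1, h5⟩ := id sq
  obtain ⟨h6, h7⟩ := h.e23 h2 pq h4 hb b1 h5
  replace h7 := h7.resolve_left fun k => h3 (h.nl_of_small h2 k)
  obtain ⟨a0, ha0, -, h8⟩ := h.large h2 h3
  have h9 : b ∈ zpowers a0 := by_contra fun k => h8 b hb k h6
  have hP := (h.sy_pv p).fl
  have nl : ∀ {s t : ℕ} [Fact s.Prime] [Fact t.Prime], s ≠ t → Perm s t A H → Small t A H →
      sy t A H ≤ 𝐍(⁅sy s A H, A⁆) := fun st k1 k2 =>
    h.z_l1 st k1 (h.nl_of_small h2 k2 _ Fact.out st)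
  have key : ∀ (s : ℕ) [Fact s.Prime], sy s A H ≤ 𝐍(⁅sy p A H, A⁆) ∨ sy s A H ≤ 𝐂[b] := by
    intro s _
    by_cases ps : p = s
    · exact .inl (ps ▸ left_le_normalizer_commutator _ _)
    by_cases ss : Small s A H
    · obtain ⟨a, ha, a1, k1⟩ := id ss
      by_cases k2 : b ∈ zpowers a
      · exact .inr (k1.trans (cent1_le_cent1_of_mem k2))
      refine .inl (nl ps (by_contra fun k3 => h8 a ha ?_ (h.e23 h2 ps k3 ha a1 k1).1) ss)
      exact h.zp_symm h2 ha a1 ha0 fun k4 => k2 (zpowers_le.2 k4 h9)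
    have k1 := h.e1 h2 ps h3 ss
    by_cases k2 : sy s A H ⊓ 𝐂[b] ≤ 𝐂(A)
    · exact .inl (h.z_p2 h2 ps k1 hb h6 k2)
    have sq' : s ≠ q := fun e => ss (e ▸ sq)
    obtain ⟨E, e1, -, e3⟩ := h.hn p q (h.sy_pv s).fl fun e =>
      k2 (inf_le_left.trans (le_cent_iff_commutator.2 e))
    refine .inl (h.z_p3 h2 ps k1 (le_trans (le_inf (e3 _ (((h.sy_pv p).inf
      (H2.le_normalizer_normalizer (h.sy_pv s).fl.inv)).pq q) inf_le_right) inf_le_left)
      (h7 E e1 (e3 _ ((h.sy_pv q).pq p).symm (nl sq' ?_ sq)))))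
    exact by_contra fun k3 => k2 (h.e23 h2 sq' k3 hb b1 h5).1
  have nM := H2.le_normalizer_inf h.nH (H2.le_normalizer_normalizer hP.inv)
  have pr : IsProd H (H ⊓ 𝐍(⁅sy p A H, A⁆)) 𝐂[b] := by
    refine z_cop inf_le_left (Nat.coprime_of_dvd fun s hs d1 d2 => ?_)
    have := Fact.mk hs
    rcases key s with k | k
    · exact (h.sy_syl s).not_dvd (d2.trans (relIndex_dvd_of_le_left _ (le_inf (h.sy_pv s).le k)))
    · exact (h.sy_syl s).not_dvd (d1.trans (relIndex_dvd_of_le_left _ k))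
  have zb := zpowers_le.2 hb
  rcases h.simp ⁅H, zpowers b⁆ ⟨commutator_le_left' (zb.trans h.nH),
    left_le_normalizer_commutator _ _⟩ (H2.le_normalizer_commutator h.nH
      ((h.ab.trans (cent_anti zb)).trans (cent_le_norm _))) with k | k
  · exact b1 (h.faith b hb (zpowers_le.1 (le_cent_iff_commutator'.2 k)))
  · refine h.norm_ne hP (h.z_fl h2 h3) (le_antisymm inf_le_left (k.ge.trans (commutator_le.2
      fun g hg y hy => ?_)))
    obtain ⟨m, hm, x, hx, rfl⟩ := pr g hg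
    have e := mem_cent_iff.1 ((cent_zpowers b).ge hx) y hy
    rw [show ⁅m * x, y⁆ = ⁅m, y⁆ by
      simp only [commutatorElement_def, mul_assoc m, ← e]; group]
    exact commutator_le_left' (zb.trans nM) (commutator_mem_commutator hm hy)

/-- case 2 -/
theorem not_rank_two : False := by
  classical
  have : Fact (Nat.Prime 2) := ⟨Nat.prime_two⟩
  have pf : ∀ {s}, s ∈ (♯H).primeFactors ↔ s.Prime ∧ s ∣ ♯H := by
    simp [card_ne_zero H]
  have sy0 : ∀ (s : ℕ) [Fact s.Prime], sy s A H ≠ ⊥ → s ∈ (♯H).primeFactors := fun s _ k =>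
    pf.2 ⟨Fact.out, (dvd_card_of_isPGroup (h.sy_pv s).pg k).trans (card_dvd_of_le' (h.sy_pv s).le)⟩
  have all : ∀ s ∈ (♯H).primeFactors, ¬ NL s A H := by
    let F := (♯H).primeFactors.filter fun s => ¬ NL s A H
    have f1 : ∀ s : F, Fact (s : ℕ).Prime := fun s => ⟨(pf.1 (Finset.mem_filter.1 s.2).1).1⟩
    have f2 : ∀ s : F, ¬ NL s A H := fun s => (Finset.mem_filter.1 s.2).2
    have f3 := h.z_pi F (fun s hs => (f1 ⟨s, hs⟩).out) fun s hs t ht st =>
      have := f1 ⟨s, hs⟩; have := f1 ⟨t, ht⟩; h.perm_of_large h2 st (f2 ⟨s, hs⟩)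
    have f4 : H ≤ 𝐍((⨆ s : F, ⁅sy s A H, A⁆ : Subgroup G)) := by
      refine h.le_of_sy le_rfl h.nH fun s hs => inf_le_right.trans ?_
      have := Fact.mk hs
      by_cases k : NL s A H
      · refine z_norm fun t => ?_
        have ts : t ≠ s := fun e => f2 t (e ▸ k)
        exact h.z_l1 ts (h.perm_of_large h2 ts (f2 t)) (k _ Fact.out ts)
      refine (h.dec le_rfl (h.sy_pv s).le (h.sy_pv s).inv).le.trans (sup_le (le_trans
        (le_iSup (fun s : F => ⁅sy s A H, A⁆) ⟨s, Finset.mem_filter.2 ⟨sy0 s fun e =>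
          h.z_fl h2 k (by rw [e, commutator_bot_left]), k⟩⟩) le_normalizer) (z_norm fun t => ?_))
      exact H2.le_normalizer_commutator ((inf_le_inf_right _ (h.sy_pv s).le).trans (h.cen_norm_sy t))
        (inf_le_right.trans (cent_le_norm _))
    rcases h.simp _ ⟨iSup_le fun s => (h.sy_pv s).fl.le, f4⟩
      (z_norm fun s => right_le_normalizer_commutator _ _) with k | k
    · obtain ⟨s, hs, k1⟩ := h.exists_large
      have := Fact.mk hs
      exact absurd (eq_bot_iff.2 ((le_iSup (fun s : F => ⁅sy s A H, A⁆) ⟨s, Finset.mem_filter.2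
        ⟨sy0 s fun e => h.z_fl h2 k1 (by rw [e, commutator_bot_left]), k1⟩⟩).trans k.le))
        (h.z_fl h2 k1)
    · exact fun s hs => f2 ⟨s, (f3.of_le (k.ge.trans (iSup_mono fun t =>
        commutator_le_left' (h.sy_pv t).inv))) s (pf.1 hs).1 (pf.1 hs).2⟩
  have pm : ∀ s ∈ (♯H).primeFactors, ∀ t, t.Prime → s ≠ t → Perm s t A H := fun s hs t ht st =>
    have := Fact.mk (pf.1 hs).1; have := Fact.mk ht; h.perm_of_large h2 st (all s hs)
  let Lp : ℕ → Subgroup G := fun t => ⨆ s : (♯H).primeFactors.erase t, sy s A H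
  have f1 : ∀ t (s : (♯H).primeFactors.erase t), Fact (s : ℕ).Prime := fun t s =>
    ⟨(pf.1 (Finset.mem_of_mem_erase s.2)).1⟩
  have l1 : ∀ t, Lp t ≤ H := fun t => iSup_le fun s => (h.sy_pv s).le
  have l2 : ∀ t, A ≤ 𝐍(Lp t) := fun t => z_norm fun s => (h.sy_pv s).inv
  have l3 : ∀ t, PiG ((♯H).primeFactors.erase t) (Lp t) := fun t =>
    h.z_pi _ (fun s hs => (f1 t ⟨s, hs⟩).out) fun s hs u hu =>
      pm s (Finset.mem_of_mem_erase hs) u (f1 t ⟨u, hu⟩).out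
  have l4 : ∀ t ∈ (♯H).primeFactors, Lp t ≠ H := fun t ht e =>
    Finset.notMem_erase t _ ((l3 t).of_le e.ge t (pf.1 ht).1 (pf.1 ht).2)
  have l5 : ∀ t (s : ℕ) [Fact s.Prime], s ≠ t → sy s A H ≤ Lp t := fun t s _ st => by
    by_cases k : sy s A H = ⊥
    · rw [k]; exact bot_le
    · exact le_iSup (fun s : (♯H).primeFactors.erase t => sy s A H)
        ⟨s, Finset.mem_erase.2 ⟨st, sy0 s k⟩⟩
  have l6 : H ≤ Lp 2 ⊔ sy 2 A H := h.le_of_sy le_rfl h.nH fun s hs => inf_le_right.trans (by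
    have := Fact.mk hs
    by_cases k : s = 2
    · exact k ▸ le_sup_right
    · exact le_sup_of_le_left (l5 2 s k))
  have two := pf.2 ⟨Nat.prime_two, h.even⟩
  obtain ⟨s, hs, s0⟩ : ∃ s : ℕ, s.Prime ∧ core {s} (Lp 2) ≠ ⊥ := by
    by_contra! k
    refine fit_ne_bot (h.sol _ (l1 2) (l4 2 two) (l2 2)) (fun e => h.nsol ?_)
      (eq_bot_iff.2 (fit_le_of_forall_pcore fun q hq => (k q hq.out).le))
    rw [e, bot_sup_eq] at l6
    exact isSolvable_of_isPGroup (isPGroup_of_le l6 (h.sy_pv 2).pg)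
  have := Fact.mk hs
  obtain ⟨t, ht, t2⟩ : ∃ t ∈ (♯H).primeFactors, t ∉ ({2, s} : Set ℕ) := by
    by_contra! k
    exact h.nsol (PQ.sol ⟨le_rfl, fun t ht d => k t (pf.2 ⟨ht, d⟩), h.nH⟩)
  have hN : Pv s A H (core {s} (Lp 2)) :=
    ⟨(core_le _ _).trans (l1 2), core_isPGroup _, le_normalizer_core _ (l2 2)⟩
  have pr := h.z_prod' (p := 2) _ (fun s hs => (f1 2 ⟨s, hs⟩).out) fun s hs =>
    ⟨Finset.ne_of_mem_erase hs, pm s (Finset.mem_of_mem_erase hs) 2 Nat.prime_two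
      (Finset.ne_of_mem_erase hs)⟩
  rcases h.simp _ ⟨SG.ncl_le_of_le hN.le, SG.le_norm_ncl _ _⟩ (SG.norm_ncl hN.inv h.nH) with k | k
  · exact s0 (eq_bot_iff.2 ((SG.le_ncl _ _).trans k.le))
  · rw [SG.ncl_eq_of_prod (fun g hg => pr g (l6 hg)) (core_nrm _ _).norm (h.sy_pv 2).le] at k
    refine l4 t ht (le_antisymm (l1 t) (k.ge.trans (SG.ncl_le fun g hg => cj_le_of_le
      (l5 t 2 (fun e => t2 (.inl e.symm)) hg) (hN.le_sy.trans (l5 t s fun e => t2 (.inr e.symm))))))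

end Mn

end Cfsg.Agent.MP
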